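import Cfsg.Agent.H441.RG.CentT3
import Cfsg.Agent.H194.RG.FixB

/-!
# S3509, `E₆`, `²E₆`: the centraliser of the component of a 3-orbit of root groups (helper675)

`cent_M` : the elements of `fixC α t` centralising `M = MK (KT hp α t) (Xo D l α θ b)` are powers of `t`.
-/

set_option autoImplicit false
set_option linter.unusedSectionVars false

namespace Cfsg.Agent.H675.RG

open CoxeterSystem Cfsg Cfsg.Lie Cfsg.Lie.ChevalleyDatum
open Cfsg.Agent.ChevalleyStructure Cfsg.Agent.ChevalleyStructure.Elts Cfsg.Agent.ChevalleyStructure.CoxeterGeom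
  Cfsg.Agent.ChevalleyStructure.CoxeterGeomTypes Cfsg.Agent.ChevalleyStructure.NPerm
open Cfsg.Agent.Tits.Roots Cfsg.Agent.Tits.Core Cfsg.Agent.Nodes Cfsg.Agent.Nodes.Reps Cfsg.Agent.Nodes.BNOf
  Cfsg.Agent.Nodes.RGDChev Cfsg.Agent.Nodes.Bruhat Cfsg.Agent.Nodes.NormalForm Cfsg.Agent.Nodes.Coroot
open Cfsg.Agent.KFacts.RgdField Cfsg.Agent.KFacts.RgdChevCoord Cfsg.Agent.KFacts.RgdSL
open Cfsg.Agent.BpExc Cfsg.Agent.BpExc.TorCent Cfsg.Agent.BpExc.TorChev Cfsg.Agent.BpExc.Tow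
  Cfsg.Agent.BpExc.TowChev Cfsg.Agent.BpExc.Fr Cfsg.Agent.BpExc.Pair Cfsg.Agent.BpExc.LangFr Cfsg.Agent.GpExc.Field
  Cfsg.Agent.BpExc.NInst Cfsg.Agent.BpExc.NChev
open Cfsg.Agent.H469.Exc Cfsg.Agent.H316.U6 Cfsg.Agent.H28.RG Cfsg.Agent.H169.RG
open Cfsg.Agent.H441.RG hiding KT
open Cfsg.Agent.H398.RG (MK Cond Base conj_MK MK_le le_MK)
open Cfsg.Agent.H338.RG Cfsg.Agent.H461.E2.Fix Cfsg.Agent.H461.E2.Sup

universe u v

section Lat

variable {I W : Type*} [Fintype I] [DecidableEq I] [Group W] [Finite W] {M : CoxeterMatrix I}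
  {A : I → I → ℤ} {cs : CoxeterSystem M W} {h : IsCartan M A} {S : Set (I → ℤ)} {θ : (I → ℤ) ≃+ (I → ℤ)}
  {b c d u v : I → ℤ}

/-- an element of order a power of 3 preserving `S` and the positive roots, commuting with `θ`, fixing `b`, is trivial -/
theorem eq_one_of_fix_b (H : Tri cs h S θ b c d u v) (hs : SL cs h) {w : W} (hS : ∀ a ∈ S, rep cs h w a ∈ S)
    (h0 : ∀ a ∈ S, 0 ≤ a → 0 ≤ rep cs h w a) (hθ : ∀ a, θ (rep cs h w a) = rep cs h w (θ a))
    (hb : rep cs h w b = b) {n : ℕ} (hn : w ^ 3 ^ n = 1) : w = 1 := by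
  have hbc := H.cpr_bc hs
  have hbd := H.cpr_bd hs
  -- the images of `c`, `d`
  have key : ∀ x, x ∈ S → 0 ≤ x → cpr cs h b x = 1 → rep cs h w x = c ∨ rep cs h w x = d := by
    intro x hx hx0 hbx
    have e1 : cpr cs h b (rep cs h w x) = 1 := by
      have e2 := cpr_rep cs h w b (H.rts x hx)
      rw [hb] at e2
      rw [e2, hbx]
    obtain ⟨y, hy, h1⟩ := H.exists_base (hS x hx) (h0 x hx hx0)
    obtain ⟨o1, o2⟩ := H.ort b (by simp) y hy
    rcases h1 with h1 | h1 | h1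
    · rw [h1] at e1 ⊢
      rcases hy with rfl | rfl | rfl
      · rw [cpr_self cs h H.bR] at e1
        omega
      · exact Or.inl rfl
      · exact Or.inr rfl
    · rw [h1, o1] at e1
      omega
    · rw [h1, o2] at e1
      omega
  have hsum : rep cs h w c + rep cs h w d = c + d := by
    rw [← map_add, ← H.bcd, hb]
  have hcd : c ≠ d := by
    intro h1
    have h2 := H.cpr_cd hs
    rw [← h1, cpr_self cs h H.cR] at h2
    omega
  have hsq : rep cs h (w ^ 2) c = c ∧ rep cs h (w ^ 2) d = d := by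
    rw [pow_two, rep_mul_apply, rep_mul_apply]
    rcases key c H.cS H.c0 hbc with h1 | h1
    · rw [h1] at hsum
      have h2 := add_left_cancel hsum
      rw [h1, h1, h2, h2]
      exact ⟨rfl, rfl⟩
    · have h2 : rep cs h w d = c := by
        rw [h1, add_comm c d] at hsum
        exact add_left_cancel hsum
      rw [h1, h2, h1]
      exact ⟨rfl, rfl⟩
  have hodd : ∃ m : ℕ, w = (w ^ 2) ^ m := by
    have h3 : Odd (3 ^ n) := Odd.pow (by decide)
    obtain ⟨m, hm⟩ := h3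
    refine ⟨m + 1, ?_⟩
    rw [← pow_mul]
    have e1 : 2 * (m + 1) = 3 ^ n + 1 := by omega
    rw [e1, pow_succ, hn, one_mul]
  obtain ⟨m, hm⟩ := hodd
  have hpow : ∀ x, rep cs h (w ^ 2) x = x → rep cs h w x = x := by
    intro x hx
    have h1 : ∀ m : ℕ, rep cs h ((w ^ 2) ^ m) x = x := by
      intro m
      induction m with
      | zero => rw [pow_zero, map_one, Module.End.one_apply]
      | succ m ih => rw [pow_succ, rep_mul_apply, hx, ih]
    have h2 := h1 m
    rwa [← hm] at h2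
  have fc := hpow c hsq.1
  have fd := hpow d hsq.2
  have fθ : ∀ x, rep cs h w x = x → rep cs h w (θ x) = θ x := fun x hx => by rw [← hθ, hx]
  have fS0 : ∀ a ∈ S, 0 ≤ a → rep cs h w a = a := by
    intro a ha ha0
    obtain ⟨y, hy, h1⟩ := H.exists_base ha ha0
    have hy' : rep cs h w y = y := by
      rcases hy with rfl | rfl | rfl
      · exact hb
      · exact fc
      · exact fd
    rcases h1 with rfl | rfl | rfl
    · exact hy'
    · exact fθ _ hy'
    · exact fθ _ (fθ _ hy')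
  have fS : ∀ a ∈ S, rep cs h w a = a := by
    intro a ha
    rcases (H.rts a ha).pos_or_neg with h1 | h1
    · exact fS0 a ha h1
    · have h2 := fS0 (-a) (H.neg a ha) (neg_nonneg.2 h1)
      rw [map_neg] at h2
      exact neg_injective h2
  let N : AddSubgroup (I → ℤ) :=
    { carrier := {x | rep cs h w x = x}
      zero_mem' := map_zero _
      add_mem' := fun {x y} hx hy => by
        change rep cs h w (x + y) = x + y
        rw [map_add, show rep cs h w x = x from hx, show rep cs h w y = y from hy]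
      neg_mem' := fun {x} hx => by
        change rep cs h w (-x) = -x
        rw [map_neg, show rep cs h w x = x from hx] }
  have hSN : S ⊆ N := fun a ha => fS a ha
  have h3u : (3 : ℤ) • u ∈ N := (AddSubgroup.closure_le N).2 hSN H.three
  have huN : u ∈ N := by
    have h4 : rep cs h w ((3 : ℤ) • u) = (3 : ℤ) • u := h3u
    rw [map_zsmul] at h4
    change rep cs h w u = u
    funext i
    have h5 := congrFun h4 i
    simp only [Pi.smul_apply, smul_eq_mul] at h5
    omega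
  have htop := H.gen N hSN huN
  apply rep_injective cs h
  rw [map_one]
  refine LinearMap.ext fun x => ?_
  have h6 : x ∈ N := by rw [htop]; exact AddSubgroup.mem_top _
  exact h6

end Lat

section Conc

variable {D : ChevalleyDatum} {l : ℕ} {M : CoxeterMatrix (Fin l)} {hp : IsType D l M} {r : ℕ} [hr : Fact r.Prime]
  {e : ℕ} {α : MulAut ↥(D.group (KK r))} {θ : (Fin l → ℤ) ≃+ (Fin l → ℤ)} {t : ↥(D.group (KK r))}
  (Δ : Wk.DFr hp M.toCoxeterSystem r e α θ t)
  {b c d u v : Fin l → ℤ} (hs : SL M.toCoxeterSystem hp.isCartan)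
  (hT : Tri M.toCoxeterSystem hp.isCartan (Sx M.toCoxeterSystem hp.isCartan (ch hp) t) θ b c d u v)
  [Finite M.Group]

include Δ hs hT

/-- **The centraliser of `M` in `C(t)`.** -/
theorem cent_M [Finite ↥(fixC α t)] (hZ : Subgroup.center ↥(D.group (KK r)) = ⊥) (ht3 : t ^ 3 = 1)
    {h' : ↥(D.group (KK r))} (hM : h' ∈ MK (KT hp α t) (Xo D l α θ b))
    (hh : h' ∈ TT D (KK r)) (hα : α h' = h')
    (hb : ch hp b h' ≠ 1) (hc : ch hp c h' ≠ 1) (hd : ch hp d h' ≠ 1) {z : ↥(D.group (KK r))} (hz : z ∈ fixC α t)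
    (hzM : ∀ x ∈ MK (KT hp α t) (Xo D l α θ b), z * x = x * z) : z ∈ Subgroup.zpowers t := by
  have hPM := PK_le_M Δ hs hT hM hh hα hb hc hd
  obtain ⟨w, x, hx, y, hyC, hy, v', hv', hyv, rfl⟩ := Δ.formC (locFin r) hz
  obtain ⟨hαy, hyt⟩ := mem_fixC.1 hyC
  -- `y` normalises `PK`
  have hn : ∀ p ∈ PK hp M.toCoxeterSystem α t, y * p * y⁻¹ ∈ PK hp M.toCoxeterSystem α t := by
    intro p hp'
    have h1 : v'⁻¹ * p * v' ∈ PK hp M.toCoxeterSystem α t := mul_mem (mul_mem (inv_mem hv') hp') hv'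
    have h2 := hzM _ (hPM h1)
    have e1 : y * p * y⁻¹ = x⁻¹ * ((x * y * v') * (v'⁻¹ * p * v')) * (x * y * v')⁻¹ * x := by group
    rw [e1, h2]
    have e2 : x⁻¹ * (v'⁻¹ * p * v' * (x * y * v')) * (x * y * v')⁻¹ * x = x⁻¹ * (v'⁻¹ * p * v') * x := by group
    rw [e2]
    exact mul_mem (mul_mem (inv_mem hx) h1) hx
  have hv1 : v' = 1 := by
    have h1 : y * v' * y⁻¹ ∈ PK hp M.toCoxeterSystem α t ⊓ QK hp M.toCoxeterSystem α t := ⟨hn _ hv', hyv⟩
    rw [Δ.PK_inf_QK (locFin r)] at h1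
    exact conj_eq_one_iff.1 (Subgroup.mem_bot.1 h1)
  subst hv1
  have hwP : w ∈ PP M.toCoxeterSystem hp.isCartan (ch hp) t := by
    refine Wk.mem_PP_of_normalizer (tow (k := KK r) hp M.toCoxeterSystem (locFin r) r)
      (coordsTL (locFin r) r) (Δ.frTL (locFin r)) (Δ.cdat (locFin r)) (Δ.hne (locFin r))
      ((rp_iff (locFin r)).2 hy) hyt hαy ?_
    rw [PP0_eq (locFin r)]
    exact hn
  -- `y` commutes with `Xo b`
  have hyX : ∀ a ∈ Xo D l α θ b, y * a = a * y := by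
    intro a ha
    have h1 := hzM _ (le_MK _ _ ha)
    rw [mul_one] at h1
    have h2 := comm_PK Δ hs hT hx ha
    have e1 : y * a = x⁻¹ * (x * y * a) := by group
    rw [e1, h1, ← mul_assoc, ← mul_assoc]
    have e2 : x⁻¹ * a * x = a := by
      rw [mul_assoc, ← h2]
      group
    rw [e2]
  have hwb := H194.RG.rep_fix_b Δ hs hT hαy hy hwP hyX
  -- `w = 1`
  have hw1 : w = 1 := by
    have h3 : IsPGroup 3 ↥(PP M.toCoxeterSystem hp.isCartan (ch hp) t) :=
      isPGroup_PP (chAddL (k := KK r) hp M.toCoxeterSystem (locFin r) r) Δ.mem (by norm_num)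
        (fun a ha => Δ.chi_pow (locFin r) ht3 a ha)
    obtain ⟨n, hn3⟩ := h3 ⟨w, hwP⟩
    have hn3' : w ^ 3 ^ n = 1 := congrArg Subtype.val hn3
    refine eq_one_of_fix_b hT hs (fun a ha => ⟨ha.1.act _, by rw [(mem_PP.1 hwP).1 a ha.1]; exact ha.2⟩)
      (mem_PP.1 hwP).2 (fun a => rep_theta Δ hy hαy a) hwb hn3'
  subst hw1
  have hyT : y ∈ TT D (KK r) := hy.mem_of_one
  -- `x = 1`
  have hxh : x * h' = h' * x := by
    have h1 := hzM _ hM
    rw [mul_one] at h1
    have h2 := TT_comm hp _ hyT _ hh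
    have e1 : x * h' * y = x * (y * h') := by rw [h2]; group
    have e2 : h' * x * y = h' * (x * y) := by group
    have e3 : x * h' * y = h' * x * y := by
      rw [e1, e2, ← h1]
      group
    exact mul_right_cancel e3
  have hx1 : x = 1 := by
    have h3 : x * t = t * x := (mem_fixC.1 (Δ.PK_le (locFin r) hx)).2
    have h4 := mem_Up2 (hp := hp) Δ.mem hh (RGD.Sup_mono (S := SP M.toCoxeterSystem hp.isCartan (ch hp) t)
      (S' := RGD.Pos M.toCoxeterSystem hp.isCartan) (fun a ha => ⟨ha.1.1, ha.2⟩) hx.1) h3 hxh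
    have h6 : RGD.Sup (XX D l (KK r)) {a | a ∈ SP M.toCoxeterSystem hp.isCartan (ch hp) t ∧
        a ∈ Sx M.toCoxeterSystem hp.isCartan (ch hp) h'} ≤ ⊥ :=
      RGD.Sup_le fun a ha => absurd ha.2 (no_Sx hT Δ hh hα hb hc hd ha.1)
    exact Subgroup.mem_bot.1 (h6 h4)
  subst hx1
  have hz' : 1 * y * 1 = y := by group
  rw [hz'] at hzM ⊢
  exact mem_zpowers_of Δ hs hT hZ ht3 hyT hαy fun p hp' => hzM p (hPM hp')

end Conc

end Cfsg.Agent.H675.RG
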