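import Cfsg.Agent.H380.RC.Rules

/-!
# Three commuting Heisenberg groups permuted by a Frobenius automorphism (S3509, K1 + K3a; helper675)

* `Hei c d b κ` : root elements `c`, `d`, `b` with `[c s, d t] = b (κ s t)`, `b` central;
* `el c d b s t w = c s * d t * b w`, `HH` : the Heisenberg group;
* `cu α y = y * α y * α (α y)`;
* `heis_main` : `α` permutes three commuting copies, `α ^ 3` acts on the first as a Frobenius map which preserves or
  swaps `X_c`, `X_d`; `x` is fixed by `α` and acts on `X_c`, `X_d` as `ω`, `ω⁻¹`, `ω ≠ 1`: for every `w` such that `b w`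
  is fixed by `α ^ 3` there is a `p`-group `U` of fixed points of `α`, normalised by `x`, centralised by
  `v = cu α (b w)`, with `v ∈ [U, x]`.
-/

set_option autoImplicit false

namespace Cfsg.Agent.H675.RG

open Cfsg.Agent.H380.RC

variable {Y : Type*} [Group Y] {K : Type*} [Field K]

/-- the Heisenberg relations -/
structure Hei (c d b : K → Y) (κ : K) : Prop where
  cadd : ∀ s t, c (s + t) = c s * c t
  dadd : ∀ s t, d (s + t) = d s * d t
  badd : ∀ s t, b (s + t) = b s * b t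
  comm : ∀ s t, c s * d t = b (κ * (s * t)) * (d t * c s)
  cb : ∀ s w, c s * b w = b w * c s
  db : ∀ t w, d t * b w = b w * d t
  κ0 : κ ≠ 0
  inj : ∀ w, b w = 1 → w = 0

/-- the elements of the Heisenberg group -/
def el (c d b : K → Y) (s t w : K) : Y := c s * d t * b w

/-- the product over the three copies -/
def cu (α : MulAut Y) (y : Y) : Y := y * α y * α (α y)

section basic

variable {c d b : K → Y} {κ : K} (h : Hei c d b κ)

include h

theorem Hei.c0 : c 0 = 1 := by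
  have := h.cadd 0 0
  rw [add_zero] at this
  exact left_eq_mul.1 this

theorem Hei.d0 : d 0 = 1 := by
  have := h.dadd 0 0
  rw [add_zero] at this
  exact left_eq_mul.1 this

theorem Hei.b0 : b 0 = 1 := by
  have := h.badd 0 0
  rw [add_zero] at this
  exact left_eq_mul.1 this

theorem Hei.cneg (s : K) : c (-s) = (c s)⁻¹ := by
  rw [eq_comm, inv_eq_iff_mul_eq_one, ← h.cadd, add_neg_cancel, h.c0]

theorem Hei.dneg (s : K) : d (-s) = (d s)⁻¹ := by
  rw [eq_comm, inv_eq_iff_mul_eq_one, ← h.dadd, add_neg_cancel, h.d0]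

theorem Hei.bneg (s : K) : b (-s) = (b s)⁻¹ := by
  rw [eq_comm, inv_eq_iff_mul_eq_one, ← h.badd, add_neg_cancel, h.b0]

theorem Hei.binj {s t : K} (hst : b s = b t) : s = t := by
  have h1 : b (s - t) = 1 := by rw [sub_eq_add_neg, h.badd, h.bneg, hst, mul_inv_cancel]
  exact sub_eq_zero.1 (h.inj _ h1)

theorem Hei.dc (s t : K) : d t * c s = c s * d t * b (-(κ * (s * t))) := by
  have h1 : b (κ * (s * t)) * (d t * c s) = (d t * c s) * b (κ * (s * t)) := by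
    rw [← mul_assoc, ← h.db, mul_assoc, ← h.cb, ← mul_assoc]
  rw [h.comm, h1, h.bneg, mul_inv_cancel_right]

theorem Hei.el_mul (s t w s' t' w' : K) :
    el c d b s t w * el c d b s' t' w' = el c d b (s + s') (t + t') (w + w' - κ * (s' * t)) := by
  unfold el
  have h1 : b w * (c s' * d t' * b w') = c s' * d t' * b (w + w') := by
    rw [h.badd]
    calc b w * (c s' * d t' * b w') = (b w * c s') * d t' * b w' := by group
      _ = c s' * (b w * d t') * b w' := by rw [← h.cb]; group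
      _ = c s' * d t' * (b w * b w') := by rw [← h.db]; group
  calc c s * d t * b w * (c s' * d t' * b w') = c s * d t * (b w * (c s' * d t' * b w')) := by group
    _ = c s * (d t * c s') * d t' * b (w + w') := by rw [h1]; group
    _ = c s * c s' * d t * (b (-(κ * (s' * t))) * d t') * b (w + w') := by rw [h.dc]; group
    _ = (c s * c s') * (d t * d t') * (b (-(κ * (s' * t))) * b (w + w')) := by rw [← h.db]; group
    _ = c (s + s') * d (t + t') * b (w + w' - κ * (s' * t)) := by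
      rw [← h.cadd, ← h.dadd, ← h.badd]
      congr 2
      ring

theorem Hei.el_zero (w : K) : el c d b 0 0 w = b w := by
  rw [el, h.c0, h.d0, one_mul, one_mul]

theorem Hei.el_c (s : K) : el c d b s 0 0 = c s := by
  rw [el, h.d0, h.b0, mul_one, mul_one]

theorem Hei.el_d (t : K) : el c d b 0 t 0 = d t := by
  rw [el, h.c0, h.b0, one_mul, mul_one]

theorem Hei.el_inv (s t w : K) : (el c d b s t w)⁻¹ = el c d b (-s) (-t) (-w - κ * (s * t)) := by
  rw [inv_eq_iff_mul_eq_one, h.el_mul, add_neg_cancel, add_neg_cancel, h.el_zero, ← h.b0]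
  congr 1
  ring

/-- commutators -/
theorem Hei.el_comm (s t w s' t' w' : K) : el c d b s t w * el c d b s' t' w' * (el c d b s t w)⁻¹ *
    (el c d b s' t' w')⁻¹ = b (κ * (s * t' - s' * t)) := by
  rw [mul_inv_eq_iff_eq_mul, mul_inv_eq_iff_eq_mul, mul_assoc, ← h.el_zero, h.el_mul, h.el_mul, h.el_mul]
  congr 1 <;> ring

theorem Hei.el_pow (s t w : K) (n : ℕ) : ∃ w', el c d b s t w ^ n = el c d b (n * s) (n * t) w' := by
  induction n with
  | zero => exact ⟨0, by rw [pow_zero, Nat.cast_zero, zero_mul, zero_mul, h.el_zero, h.b0]⟩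
  | succ n ih =>
    obtain ⟨w', hw⟩ := ih
    refine ⟨w' + w - κ * (s * (n * t)), ?_⟩
    rw [pow_succ, hw, h.el_mul, Nat.cast_succ, add_mul, one_mul, add_mul, one_mul]

theorem Hei.b_pow (w : K) (n : ℕ) : b w ^ n = b (n * w) := by
  induction n with
  | zero => rw [pow_zero, Nat.cast_zero, zero_mul, h.b0]
  | succ n ih => rw [pow_succ, ih, Nat.cast_succ, add_mul, one_mul, h.badd]

theorem Hei.el_pow_sq (p : ℕ) [CharP K p] (s t w : K) : el c d b s t w ^ (p ^ 2) = 1 := by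
  obtain ⟨w', hw⟩ := h.el_pow s t w p
  rw [pow_two, pow_mul, hw, CharP.cast_eq_zero, zero_mul, zero_mul, h.el_zero, h.b_pow, CharP.cast_eq_zero, zero_mul,
    h.b0]

/-- `b` as a commutator -/
theorem Hei.b_eq (w : K) : b w = c 1 * d (w / κ) * (c 1)⁻¹ * (d (w / κ))⁻¹ := by
  have h1 := h.el_comm 1 0 0 0 (w / κ) 0
  rw [h.el_c, h.el_d] at h1
  rw [h1]
  congr 1
  have := h.κ0
  field_simp
  ring

end basic

/-! ### the three copies -/

/-- the Heisenberg group -/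
def HH {c d b : K → Y} {κ : K} (h : Hei c d b κ) : Subgroup Y where
  carrier := {y | ∃ s t w, y = el c d b s t w}
  mul_mem' := by
    rintro _ _ ⟨s, t, w, rfl⟩ ⟨s', t', w', rfl⟩
    exact ⟨_, _, _, h.el_mul ..⟩
  one_mem' := ⟨0, 0, 0, by rw [h.el_zero, h.b0]⟩
  inv_mem' := by
    rintro _ ⟨s, t, w, rfl⟩
    exact ⟨_, _, _, h.el_inv ..⟩

section copies

variable {α : MulAut Y} {c d b : K → Y} {κ : K} {h : Hei c d b κ}

theorem mem_HH {y : Y} : y ∈ HH h ↔ ∃ s t w, y = el c d b s t w := Iff.rfl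

theorem el_mem (s t w : K) : el c d b s t w ∈ HH h := ⟨s, t, w, rfl⟩

theorem HH_le {S : Subgroup Y} (hc : ∀ s, c s ∈ S) (hd : ∀ t, d t ∈ S) : HH h ≤ S := by
  rintro _ ⟨s, t, w, rfl⟩
  refine S.mul_mem (S.mul_mem (hc _) (hd _)) ?_
  rw [h.b_eq]
  exact S.mul_mem (S.mul_mem (S.mul_mem (hc _) (hd _)) (S.inv_mem (hc _))) (S.inv_mem (hd _))

/-- two automorphic images commute if the root groups do -/
theorem com_of_gens {β : Y →* Y} (h1 : ∀ s t, c s * β (c t) = β (c t) * c s) (h2 : ∀ s t, c s * β (d t) = β (d t) * c s)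
    (h3 : ∀ s t, d s * β (c t) = β (c t) * d s) (h4 : ∀ s t, d s * β (d t) = β (d t) * d s) {y y' : Y}
    (hy : y ∈ HH h) (hy' : y' ∈ HH h) : y * β y' = β y' * y := by
  have e1 : ∀ t, HH h ≤ Subgroup.centralizer {β (c t)} := fun t => HH_le
    (fun s => Subgroup.mem_centralizer_singleton_iff.2 (h1 s t)) (fun s => Subgroup.mem_centralizer_singleton_iff.2 (h3 s t))
  have e2 : ∀ t, HH h ≤ Subgroup.centralizer {β (d t)} := fun t => HH_le
    (fun s => Subgroup.mem_centralizer_singleton_iff.2 (h2 s t)) (fun s => Subgroup.mem_centralizer_singleton_iff.2 (h4 s t))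
  have e3 : HH h ≤ (Subgroup.centralizer {y}).comap β := HH_le
    (fun t => Subgroup.mem_centralizer_singleton_iff.2 (Subgroup.mem_centralizer_singleton_iff.1 (e1 t hy)).symm)
    (fun t => Subgroup.mem_centralizer_singleton_iff.2 (Subgroup.mem_centralizer_singleton_iff.1 (e2 t hy)).symm)
  exact (Subgroup.mem_centralizer_singleton_iff.1 (e3 hy')).symm

/-- `H` commutes with `α H` and `α² H` -/
def Com (α : MulAut Y) (H : Subgroup Y) : Prop :=
  ∀ y ∈ H, ∀ y' ∈ H, y * α y' = α y' * y ∧ y * α (α y') = α (α y') * y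

variable {H : Subgroup Y} (hc : Com α H)

include hc

theorem cu_mul {y y' : Y} (hy : y ∈ H) (hy' : y' ∈ H) : cu α (y * y') = cu α y * cu α y' := by
  have h1 := (hc y' hy' y hy).1
  have h2 := (hc y' hy' y hy).2
  have h3 := congrArg α (hc y' hy' y hy).1
  rw [map_mul, map_mul] at h3
  unfold cu
  rw [map_mul, map_mul]
  calc y * y' * (α y * α y') * (α (α y) * α (α y')) = y * (y' * α y) * (α y' * α (α y)) * α (α y') := by group
    _ = y * α y * (y' * α (α y)) * α y' * α (α y') := by rw [h1, h3]; group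
    _ = y * α y * α (α y) * (y' * α y' * α (α y')) := by rw [h2]; group

omit hc in
theorem cu_one : cu α (1 : Y) = 1 := by
  unfold cu
  simp

theorem cu_inv {y : Y} (hy : y ∈ H) : cu α y⁻¹ = (cu α y)⁻¹ := by
  rw [eq_inv_iff_mul_eq_one, ← cu_mul hc (H.inv_mem hy) hy, inv_mul_cancel, cu_one]

theorem cu_pow {y : Y} (hy : y ∈ H) (n : ℕ) : cu α (y ^ n) = cu α y ^ n := by
  induction n with
  | zero => rw [pow_zero, pow_zero, cu_one]
  | succ n ih => rw [pow_succ, pow_succ, cu_mul hc (H.pow_mem hy n) hy, ih]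

theorem cu_fix {y : Y} (hy : y ∈ H) (h3 : α (α (α y)) = y) : α (cu α y) = cu α y := by
  have h1 := (hc y hy y hy).1
  have h2 := (hc y hy y hy).2
  unfold cu
  rw [map_mul, map_mul, h3]
  calc α y * α (α y) * y = α y * (y * α (α y)) := by rw [h2]; group
    _ = y * α y * α (α y) := by rw [h1]; group

omit hc in
theorem cu_conj {x y : Y} (hx : α x = x) : cu α (x * y * x⁻¹) = x * cu α y * x⁻¹ := by
  unfold cu
  rw [map_mul, map_mul, map_mul, map_mul, map_inv, map_inv, hx, hx]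
  group

/-- the group `U` -/
def UU (hc : Com α H) : Subgroup Y where
  carrier := {u | ∃ y ∈ H, α (α (α y)) = y ∧ u = cu α y}
  mul_mem' := by
    rintro _ _ ⟨y, hy, h1, rfl⟩ ⟨y', hy', h1', rfl⟩
    exact ⟨y * y', H.mul_mem hy hy', by rw [map_mul, map_mul, map_mul, h1, h1'], (cu_mul hc hy hy').symm⟩
  one_mem' := ⟨1, H.one_mem, by simp, (cu_one).symm⟩
  inv_mem' := by
    rintro _ ⟨y, hy, h1, rfl⟩
    exact ⟨y⁻¹, H.inv_mem hy, by rw [map_inv, map_inv, map_inv, h1], (cu_inv hc hy).symm⟩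

theorem cu_mem_UU {y : Y} (hy : y ∈ H) (h1 : α (α (α y)) = y) : cu α y ∈ UU hc := ⟨y, hy, h1, rfl⟩

theorem cmm_one {x y : Y} (hx : α x = x) (hy : y ∈ H) (h1 : α (α (α y)) = y) (hxy : x * y⁻¹ * x⁻¹ ∈ H) :
    cu α (y * (x * y⁻¹ * x⁻¹)) ∈ cmm (UU hc) x := by
  have h2 := mem_cmm (x := x) (cu_mem_UU hc hy h1)
  have h3 : cu α (y * (x * y⁻¹ * x⁻¹)) = cu α y * x * (cu α y)⁻¹ * x⁻¹ := by
    rw [cu_mul hc hy hxy, cu_conj hx, cu_inv hc hy]
    group
  rwa [h3]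

theorem cmm_two {x g g' : Y} (hg : g ∈ H) (hg' : g' ∈ H) (h1 : cu α g ∈ cmm (UU hc) x) (h2 : cu α g' ∈ cmm (UU hc) x) :
    cu α (g * g' * g⁻¹ * g'⁻¹) ∈ cmm (UU hc) x := by
  rw [cu_mul hc (H.mul_mem (H.mul_mem hg hg') (H.inv_mem hg)) (H.inv_mem hg'),
    cu_mul hc (H.mul_mem hg hg') (H.inv_mem hg), cu_mul hc hg hg', cu_inv hc hg, cu_inv hc hg']
  exact mul_mem (mul_mem (mul_mem h1 h2) (inv_mem h1)) (inv_mem h2)

end copies

/-! ### the main theorem -/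

section main

variable {α : MulAut Y} {c d b : K → Y} {κ : K} {h : Hei c d b κ} {x : Y} {ω : K}

/-- the action of `x` -/
theorem act_el (hω : ω ≠ 0) (hxc : ∀ s, x * c s * x⁻¹ = c (ω * s)) (hxd : ∀ t, x * d t * x⁻¹ = d (ω⁻¹ * t))
    (h : Hei c d b κ) (s t w : K) : x * el c d b s t w * x⁻¹ = el c d b (ω * s) (ω⁻¹ * t) w := by
  have h1 : x * b w * x⁻¹ = b w := by
    have h2 : x * b w * x⁻¹ = (x * c 1 * x⁻¹) * (x * d (w / κ) * x⁻¹) * (x * c 1 * x⁻¹)⁻¹ * (x * d (w / κ) * x⁻¹)⁻¹ := by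
      rw [h.b_eq w]
      group
    rw [h2, hxc, hxd]
    have h3 := h.el_comm (ω * 1) 0 0 0 (ω⁻¹ * (w / κ)) 0
    rw [h.el_c, h.el_d] at h3
    rw [h3]
    congr 1
    have := h.κ0
    field_simp
    ring
  calc x * el c d b s t w * x⁻¹ = (x * c s * x⁻¹) * (x * d t * x⁻¹) * (x * b w * x⁻¹) := by unfold el; group
    _ = _ := by rw [hxc, hxd, h1]; rfl

/-- `[y, x]` -/
theorem comm_x (hω : ω ≠ 0) (hxc : ∀ s, x * c s * x⁻¹ = c (ω * s)) (hxd : ∀ t, x * d t * x⁻¹ = d (ω⁻¹ * t))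
    (h : Hei c d b κ) (s t w : K) : ∃ w', el c d b s t w * (x * (el c d b s t w)⁻¹ * x⁻¹) =
      el c d b ((1 - ω) * s) ((1 - ω⁻¹) * t) w' := by
  refine ⟨w + (-w - κ * (s * t)) - κ * (ω * -s * t), ?_⟩
  rw [h.el_inv, act_el hω hxc hxd h, h.el_mul]
  congr 1 <;> ring

theorem comm_x_c (hxc : ∀ s, x * c s * x⁻¹ = c (ω * s)) (h : Hei c d b κ) (s : K) :
    c s * (x * (c s)⁻¹ * x⁻¹) = c ((1 - ω) * s) := by
  rw [← h.cneg, hxc, ← h.cadd]
  congr 1
  ring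

theorem comm_x_d (hxd : ∀ t, x * d t * x⁻¹ = d (ω⁻¹ * t)) (h : Hei c d b κ) (t : K) :
    d t * (x * (d t)⁻¹ * x⁻¹) = d ((1 - ω⁻¹) * t) := by
  rw [← h.dneg, hxd, ← h.dadd]
  congr 1
  ring

theorem Hei.comm_cd (h : Hei c d b κ) (s t : K) : c s * d t * (c s)⁻¹ * (d t)⁻¹ = b (κ * (s * t)) := by
  have h1 := h.el_comm s 0 0 0 t 0
  rw [h.el_c, h.el_d] at h1
  rw [h1]
  congr 1
  ring

theorem Hei.dinj (h : Hei c d b κ) {s t : K} (hst : d s = d t) : s = t := by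
  have h1 := h.comm_cd 1 s
  rw [hst, h.comm_cd] at h1
  have h2 := h.binj h1
  have h3 := mul_left_cancel₀ h.κ0 h2
  simpa using h3.symm

theorem Hei.cinj (h : Hei c d b κ) {s t : K} (hst : c s = c t) : s = t := by
  have h1 := h.comm_cd s 1
  rw [hst, h.comm_cd] at h1
  have h2 := h.binj h1
  have h3 := mul_left_cancel₀ h.κ0 h2
  simpa using h3.symm

/-- `X_c`, `X_d` preserved -/
theorem case_one (hc : Com α (HH h)) (hx : α x = x) (hω : ω ≠ 0) (hω1 : ω ≠ 1)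
    (hxc : ∀ s, x * c s * x⁻¹ = c (ω * s)) (hxd : ∀ t, x * d t * x⁻¹ = d (ω⁻¹ * t)) {f : K → K}
    (hβ : ∀ t, α (α (α (d t))) = d (f t)) {s₀ : K} (hs : s₀ ≠ 0) (hs' : α (α (α (c s₀))) = c s₀) {w : K}
    (hw : α (α (α (b w))) = b w) : cu α (b w) ∈ cmm (UU hc) x := by
  have k0 := h.κ0
  have e1 : (1 - ω) ≠ 0 := sub_ne_zero.2 (Ne.symm hω1)
  have e2 : (1 - ω⁻¹) ≠ 0 := sub_ne_zero.2 fun h3 => hω1 (inv_eq_one.1 h3.symm)
  have hx3 : α (α (α x)) = x := by rw [hx, hx, hx]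
  set t := w / (κ * ((1 - ω) * s₀) * (1 - ω⁻¹)) with ht
  have hcs : c s₀ ∈ HH h := by rw [← h.el_c]; exact el_mem _ _ _
  have hd : ∀ t, d t ∈ HH h := fun t => by rw [← h.el_d]; exact el_mem _ _ _
  have hcc : ∀ s, c s ∈ HH h := fun t => by rw [← h.el_c]; exact el_mem _ _ _
  have h1 : c ((1 - ω) * s₀) * d ((1 - ω⁻¹) * t) * (c ((1 - ω) * s₀))⁻¹ * (d ((1 - ω⁻¹) * t))⁻¹ = b w := by
    rw [h.comm_cd, ht]
    congr 1
    field_simp
  have h2 : α (α (α (c ((1 - ω) * s₀)))) = c ((1 - ω) * s₀) := by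
    rw [← comm_x_c hxc h]
    simp only [map_mul, map_inv, hs', hx3]
  have h3 : ∀ t, α (α (α (d ((1 - ω⁻¹) * t)))) = d ((1 - ω⁻¹) * f t) := by
    intro t
    rw [← comm_x_d hxd h, ← comm_x_d hxd h]
    simp only [map_mul, map_inv, hβ, hx3]
  have h4 : f t = t := by
    have h5 := congrArg (fun z => α (α (α z))) h1
    simp only [map_mul, map_inv, h2, h3, hw] at h5
    rw [← h1, h.comm_cd, h.comm_cd] at h5
    have h6 := h.binj h5
    have h7 := mul_left_cancel₀ k0 h6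
    have h8 := mul_left_cancel₀ (mul_ne_zero e1 hs) h7
    exact mul_left_cancel₀ e2 h8
  have g1 : cu α (c ((1 - ω) * s₀)) ∈ cmm (UU hc) x := by
    rw [← comm_x_c hxc h]
    refine cmm_one hc hx hcs hs' ?_
    rw [← h.cneg, hxc]
    exact hcc _
  have g2 : cu α (d ((1 - ω⁻¹) * t)) ∈ cmm (UU hc) x := by
    rw [← comm_x_d hxd h]
    refine cmm_one hc hx (hd t) (by rw [hβ, h4]) ?_
    rw [← h.dneg, hxd]
    exact hd _
  have g3 := cmm_two hc (hcc _) (hd _) g1 g2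
  rwa [h1] at g3

/-- an additive polynomial equation -/
theorem exists_add [IsAlgClosed K] {A : K} (hA : A ≠ 0) (B C : K) {Q : ℕ} (hQ : 1 < Q) : ∃ z : K, A * z ^ Q + B * z + C = 0 := by
  obtain ⟨z, hz⟩ := IsAlgClosed.exists_root
    (Polynomial.C A * Polynomial.X ^ Q + (Polynomial.C B * Polynomial.X + Polynomial.C C)) (by
      rw [Polynomial.degree_add_eq_left_of_degree_lt]
      · rw [Polynomial.degree_C_mul_X_pow Q hA]
        exact_mod_cast (by omega : Q ≠ 0)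
      · rw [Polynomial.degree_C_mul_X_pow Q hA]
        refine lt_of_le_of_lt Polynomial.degree_linear_le ?_
        exact_mod_cast hQ)
  refine ⟨z, ?_⟩
  simpa [Polynomial.IsRoot, add_assoc] using hz

/-- `X_c`, `X_d` swapped -/
theorem case_two {p : ℕ} [Fact p.Prime] [CharP K p] [IsAlgClosed K] (hc : Com α (HH h)) (hx : α x = x) (hω : ω ≠ 0)
    (hω1 : ω ≠ 1) (hxc : ∀ s, x * c s * x⁻¹ = c (ω * s)) (hxd : ∀ t, x * d t * x⁻¹ = d (ω⁻¹ * t)) {n : ℕ} (hn : 0 < n)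
    {kc kd : K} (hkc : kc ≠ 0) (hkd : kd ≠ 0) (hβc : ∀ s, α (α (α (c s))) = d (kc * s ^ p ^ n))
    (hβd : ∀ t, α (α (α (d t))) = c (kd * t ^ p ^ n)) {w : K} (hw : α (α (α (b w))) = b w) :
    cu α (b w) ∈ cmm (UU hc) x := by
  have k0 := h.κ0
  have e1 : (1 - ω) ≠ 0 := sub_ne_zero.2 (Ne.symm hω1)
  have e2 : (1 - ω⁻¹) ≠ 0 := sub_ne_zero.2 fun h3 => hω1 (inv_eq_one.1 h3.symm)
  have hx3 : α (α (α x)) = x := by rw [hx, hx, hx]
  obtain ⟨Q, hQ⟩ : ∃ Q, Q = p ^ n := ⟨_, rfl⟩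
  have hp : 1 < p := (Fact.out : p.Prime).one_lt
  have hQ1 : 1 < Q := by rw [hQ]; exact Nat.one_lt_pow hn.ne' hp
  have hsub : ∀ u v : K, (u - v) ^ Q = u ^ Q - v ^ Q := fun u v => by rw [hQ]; exact sub_pow_char_pow u v n
  rw [← hQ] at hβc hβd
  have hβb : ∀ w, α (α (α (b w))) = b (-(κ * (kc * kd * (w / κ) ^ Q))) := by
    intro w
    have h1 : α (α (α (b w))) = d kc * c (kd * (w / κ) ^ Q) * (d kc)⁻¹ * (c (kd * (w / κ) ^ Q))⁻¹ := by
      rw [h.b_eq w]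
      simp only [map_mul, map_inv, hβc, hβd]
      rw [one_pow, mul_one]
    have h2 : d kc * c (kd * (w / κ) ^ Q) * (d kc)⁻¹ * (c (kd * (w / κ) ^ Q))⁻¹ =
        (c (kd * (w / κ) ^ Q) * d kc * (c (kd * (w / κ) ^ Q))⁻¹ * (d kc)⁻¹)⁻¹ := by group
    rw [h1, h2, h.comm_cd, ← h.bneg]
    congr 2
    ring
  have hωQ : ω ^ Q = ω⁻¹ := by
    have h1 : α (α (α (x * c 1 * x⁻¹))) = x * α (α (α (c 1))) * x⁻¹ := by
      simp only [map_mul, map_inv, hx]
    rw [hxc, hβc, hβc, hxd, one_pow, mul_one, mul_one] at h1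
    have h2 := h.dinj h1
    rw [mul_comm] at h2
    exact mul_right_cancel₀ hkc h2
  set ν := (1 - ω) * (1 - ω⁻¹) with hν
  have hνQ : ν ^ Q = ν := by
    rw [hν, mul_pow, hsub, hsub, one_pow, hωQ, inv_pow, hωQ, inv_inv, mul_comm]
  have hν0 : ν ≠ 0 := mul_ne_zero e1 e2
  -- the fixed elements
  have key : ∀ s : K, kd * (kc * s ^ Q) ^ Q = s → ∃ w, α (α (α (el c d b s (kc * s ^ Q) w))) = el c d b s (kc * s ^ Q) w := by
    intro s hs
    obtain ⟨z, hz⟩ := exists_add (K := K) (A := -(κ * (kc * kd) / κ ^ Q)) (neg_ne_zero.2 (div_ne_zero (mul_ne_zero k0 (mul_ne_zero hkc hkd)) (pow_ne_zero _ k0))) (-1)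
      (-(κ * (s * (kc * s ^ Q)))) hQ1
    refine ⟨z, ?_⟩
    have h1 : α (α (α (el c d b s (kc * s ^ Q) z))) = d (kc * s ^ Q) * c (kd * (kc * s ^ Q) ^ Q) *
        b (-(κ * (kc * kd * (z / κ) ^ Q))) := by
      unfold el
      simp only [map_mul, hβc, hβd, hβb]
    rw [h1, hs, h.dc, mul_assoc, ← h.badd]
    unfold el
    congr 2
    rw [div_pow]
    linear_combination hz
  -- a nonzero solution
  obtain ⟨s₁, hs₁⟩ := IsAlgClosed.exists_pow_nat_eq ((kd * kc ^ Q)⁻¹) (n := Q * Q - 1) (by nlinarith [Nat.sub_add_cancel (show 1 ≤ Q * Q by nlinarith)])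
  have hs0 : s₁ ≠ 0 := by
    rintro rfl
    rw [zero_pow (by nlinarith [Nat.sub_add_cancel (show 1 ≤ Q * Q by nlinarith)])] at hs₁
    exact inv_ne_zero (mul_ne_zero hkd (pow_ne_zero _ hkc)) hs₁.symm
  have hs2 : kd * kc ^ Q * s₁ ^ (Q * Q) = s₁ := by
    have h1 : s₁ ^ (Q * Q) = s₁ ^ (Q * Q - 1) * s₁ := by
      rw [← pow_succ, Nat.sub_add_cancel (show 1 ≤ Q * Q by nlinarith)]
    rw [h1, hs₁]
    have : kd * kc ^ Q ≠ 0 := mul_ne_zero hkd (pow_ne_zero _ hkc)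
    field_simp
  set A := κ * ν * kc * s₁ ^ Q * s₁ with hA
  have hA0 : A ≠ 0 := mul_ne_zero (mul_ne_zero (mul_ne_zero (mul_ne_zero k0 hν0) hkc) (pow_ne_zero _ hs0)) hs0
  have hAQ : κ * (kc * kd) / κ ^ Q * A ^ Q = A := by
    rw [hA, mul_pow, mul_pow, mul_pow, mul_pow, hνQ, ← pow_mul, div_mul_eq_mul_div, div_eq_iff (pow_ne_zero _ k0)]
    linear_combination (κ * κ ^ Q * ν * kc * s₁ ^ Q) * hs2
  obtain ⟨ζ, hζ⟩ := exists_add (K := K) (A := A) hA0 (-A) (-w) hQ1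
  have hw1 : -(κ * (kc * kd * (w / κ) ^ Q)) = w := by
    have h1 := hw
    rw [hβb] at h1
    exact h.binj h1
  have hw2 : w = A * (ζ ^ Q - ζ) := by linear_combination -hζ
  have hζQ : ζ ^ (Q * Q) = ζ := by
    have h1 : w ^ Q = A ^ Q * (ζ ^ (Q * Q) - ζ ^ Q) := by rw [hw2, mul_pow, hsub, ← pow_mul]
    have h2 : -(A * (ζ ^ (Q * Q) - ζ ^ Q)) = A * (ζ ^ Q - ζ) := by
      rw [← hw2, ← hw1, div_pow, h1]
      linear_combination (ζ ^ (Q * Q) - ζ ^ Q) * hAQ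
    have h3 : A * (ζ ^ (Q * Q) - ζ) = 0 := by linear_combination -h2
    exact sub_eq_zero.1 ((mul_eq_zero.1 h3).resolve_left hA0)
  have f1 : kd * (kc * s₁ ^ Q) ^ Q = s₁ := by
    rw [mul_pow, ← pow_mul]
    linear_combination hs2
  have f2 : kd * (kc * (ζ * s₁) ^ Q) ^ Q = ζ * s₁ := by
    rw [mul_pow, ← pow_mul, mul_pow, hζQ]
    linear_combination ζ * hs2
  obtain ⟨w₁, hw₁⟩ := key s₁ f1
  obtain ⟨w₂, hw₂⟩ := key (ζ * s₁) f2
  obtain ⟨u₁, hu₁⟩ := comm_x hω hxc hxd h s₁ (kc * s₁ ^ Q) w₁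
  obtain ⟨u₂, hu₂⟩ := comm_x hω hxc hxd h (ζ * s₁) (kc * (ζ * s₁) ^ Q) w₂
  have hxm : ∀ s t w, x * (el c d b s t w)⁻¹ * x⁻¹ ∈ HH h := by
    intro s t w
    rw [h.el_inv, act_el hω hxc hxd h]
    exact el_mem _ _ _
  have g1 := cmm_one hc hx (el_mem _ _ _) hw₁ (hxm _ _ _)
  have g2 := cmm_one hc hx (el_mem _ _ _) hw₂ (hxm _ _ _)
  rw [hu₁] at g1
  rw [hu₂] at g2
  have g3 := cmm_two hc (el_mem _ _ _) (el_mem _ _ _) g1 g2
  rw [h.el_comm] at g3
  have h9 : κ * ((1 - ω) * s₁ * ((1 - ω⁻¹) * (kc * (ζ * s₁) ^ Q)) - (1 - ω) * (ζ * s₁) * ((1 - ω⁻¹) * (kc * s₁ ^ Q))) = w := by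
    rw [hw2, hA, hν, mul_pow]
    ring
  rwa [h9] at g3

/-- **The main theorem.** -/
theorem heis_main {p : ℕ} [Fact p.Prime] [CharP K p] [IsAlgClosed K] (h : Hei c d b κ) (hc : Com α (HH h))
    (hx : α x = x) (hω : ω ≠ 0) (hω1 : ω ≠ 1) (hxc : ∀ s, x * c s * x⁻¹ = c (ω * s))
    (hxd : ∀ t, x * d t * x⁻¹ = d (ω⁻¹ * t)) {n : ℕ} (hn : 0 < n) {kc kd : K} (hkc : kc ≠ 0) (hkd : kd ≠ 0)
    (hβ : ((∀ s, α (α (α (c s))) = c (kc * s ^ p ^ n)) ∧ ∀ t, α (α (α (d t))) = d (kd * t ^ p ^ n)) ∨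
      ((∀ s, α (α (α (c s))) = d (kc * s ^ p ^ n)) ∧ ∀ t, α (α (α (d t))) = c (kd * t ^ p ^ n))) :
    ∃ U : Subgroup Y, (∀ u ∈ U, α u = u) ∧ (∀ u ∈ U, u ^ p ^ 2 = 1) ∧ (∀ u ∈ U, x * u * x⁻¹ ∈ U) ∧
      ∀ w, α (α (α (b w))) = b w → cu α (b w) ∈ U ∧ (∀ u ∈ U, u * cu α (b w) = cu α (b w) * u) ∧
        cu α (b w) ∈ cmm U x := by
  refine ⟨UU hc, ?_, ?_, ?_, ?_⟩
  · rintro _ ⟨y, hy, h3, rfl⟩
    exact cu_fix hc hy h3
  · rintro _ ⟨y, ⟨s, t, w, rfl⟩, h3, rfl⟩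
    rw [← cu_pow hc (el_mem _ _ _), h.el_pow_sq, cu_one]
  · rintro _ ⟨y, ⟨s, t, w, rfl⟩, h3, rfl⟩
    rw [← cu_conj hx]
    refine cu_mem_UU hc ?_ ?_
    · rw [act_el hω hxc hxd h]
      exact el_mem _ _ _
    · simp only [map_mul, map_inv, hx, h3]
  · intro w hw
    have hb : b w ∈ HH h := by rw [← h.el_zero]; exact el_mem _ _ _
    refine ⟨cu_mem_UU hc hb hw, ?_, ?_⟩
    · rintro _ ⟨y, ⟨s, t, w', rfl⟩, h3, rfl⟩
      rw [← cu_mul hc (el_mem _ _ _) hb, ← cu_mul hc hb (el_mem _ _ _)]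
      congr 1
      rw [← h.el_zero w, h.el_mul, h.el_mul]
      congr 1 <;> ring
    · rcases hβ with ⟨h1, h2⟩ | ⟨h1, h2⟩
      · obtain ⟨s₀, hs₀⟩ := IsAlgClosed.exists_pow_nat_eq (kc⁻¹) (n := p ^ n - 1)
          (Nat.sub_pos_of_lt (Nat.one_lt_pow hn.ne' (Fact.out : p.Prime).one_lt))
        have hs0 : s₀ ≠ 0 := by
          rintro rfl
          rw [zero_pow (Nat.sub_pos_of_lt (Nat.one_lt_pow hn.ne' (Fact.out : p.Prime).one_lt)).ne'] at hs₀
          exact inv_ne_zero hkc hs₀.symm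
        refine case_one hc hx hω hω1 hxc hxd h2 hs0 ?_ hw
        rw [h1]
        congr 1
        have h3 : s₀ ^ p ^ n = s₀ ^ (p ^ n - 1) * s₀ := by
          rw [← pow_succ, Nat.sub_add_cancel (Nat.one_le_pow _ _ (Fact.out : p.Prime).pos)]
        rw [h3, hs₀, mul_inv_cancel_left₀ hkc]
      · exact case_two hc hx hω hω1 hxc hxd hn hkc hkd h1 h2 hw

end main

end Cfsg.Agent.H675.RG
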