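import Cfsg.Agent.H605.MX.Cases
import Cfsg.Agent.H169.RG.ImgFr
import Cfsg.Agent.H338.RG.TriL
import Cfsg.Agent.H675.RG.Heis3

/-!
# S3509, `E₆`, `²E₆`: the `SL₂(q³)` of an orbit of three orthogonal root groups (helper675)

`α` a frame automorphism over `θ` with `IsFrob r e α`, `b` a root, `O3 cs h θ b` (the orbit consists of three orthogonal
roots).

* `ps_ker` : the kernel of the homomorphism `SL₂ → ⟨X_b, X_{-b}⟩`; `eq_one_of_comm` : `X_b ⊓ C(X_{-b}) = 1`;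
* `orb_dec`, `orb_fix` : `⟨X_b, X_{θ b}, X_{θ² b}⟩ ⊓ Fix α = {x α(x) α²(x) : x ∈ X_b, α³ x = x}`;
* `imgK_orb` : `ImgK ((r ^ e) ^ 3)` for these groups of `b`, `-b`, and the torus elements.
-/

set_option autoImplicit false
set_option linter.unusedSectionVars false

namespace Cfsg.Agent.H675.RG

open CoxeterSystem Cfsg Cfsg.Lie Cfsg.Lie.ChevalleyDatum
open Cfsg.Agent.ChevalleyStructure Cfsg.Agent.ChevalleyStructure.Elts Cfsg.Agent.ChevalleyStructure.CoxeterGeom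
  Cfsg.Agent.ChevalleyStructure.CoxeterGeomTypes Cfsg.Agent.ChevalleyStructure.NPerm
open Cfsg.Agent.Tits.Roots Cfsg.Agent.Tits.Core Cfsg.Agent.Nodes Cfsg.Agent.Nodes.Reps Cfsg.Agent.Nodes.BNOf
  Cfsg.Agent.Nodes.RGDChev Cfsg.Agent.Nodes.Coroot
open Cfsg.Agent.KFacts.RgdField Cfsg.Agent.KFacts.RgdChevCoord Cfsg.Agent.KFacts.RgdSL
open Cfsg.Agent.BpExc Cfsg.Agent.BpExc.TorCent Cfsg.Agent.BpExc.TorChev Cfsg.Agent.BpExc.Tow
  Cfsg.Agent.BpExc.TowChev Cfsg.Agent.BpExc.Fr Cfsg.Agent.BpExc.LangFr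
open Cfsg.Agent.ChevalleyStructure.SL2Hom (up lo mem_closure_SL2)
open Cfsg.Agent.Nodes.RGDFold Cfsg.Agent.Nodes.RGDFoldSL
open Cfsg.Agent.H469.Exc Cfsg.Agent.H469.Exc.SigFr Cfsg.Agent.H81.TorOrth
open Cfsg.Agent.H129.TorusChar
open Cfsg.Agent.LangThm (mem_XX_vec)
open Cfsg.Agent.H605.MX Cfsg.Agent.H338.RG
open Cfsg.Agent.H169.RG (ImgK)

universe u

section ker

variable {D : ChevalleyDatum} {l : ℕ} {M : CoxeterMatrix (Fin l)} (hp : IsType D l M) {k : Type u} [Field k]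

/-- the kernel of `ps` -/
theorem ps_ker {s : ℕ} (hs : s < D.nroots) {A : Matrix.SpecialLinearGroup (Fin 2) k} (hA : ps hp hs A = 1) :
    A = 1 ∨ A = -1 := by
  have h1 : psi hp.inList k s A = 1 := by
    rw [← coe_ps hp hs, hA]
    rfl
  rw [psi, dif_pos hs] at h1
  exact Cfsg.Agent.OddHalf.LongSL.Chev.phi_eq_one _ h1

/-- `up u` commutes with `lo 1` modulo `± 1` only for `u = 0` -/
theorem sl_comm {u : k} (h : up u * lo 1 = lo 1 * up u ∨ up u * lo 1 = -(lo 1 * up u)) : u = 0 := by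
  have a1 : (up u * lo 1).1 0 0 = 1 + u := by
    change (!![1, u; 0, 1] * !![1, 0; 1, 1] : Matrix (Fin 2) (Fin 2) k) 0 0 = _
    simp
  have a2 : (lo 1 * up u).1 0 0 = 1 := by
    change (!![1, 0; 1, 1] * !![1, u; 0, 1] : Matrix (Fin 2) (Fin 2) k) 0 0 = _
    simp
  have a3 : (up u * lo 1).1 1 0 = 1 := by
    change (!![1, u; 0, 1] * !![1, 0; 1, 1] : Matrix (Fin 2) (Fin 2) k) 1 0 = _
    simp
  have a4 : (lo 1 * up u).1 1 0 = 1 := by
    change (!![1, 0; 1, 1] * !![1, u; 0, 1] : Matrix (Fin 2) (Fin 2) k) 1 0 = _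
    simp
  rcases h with h | h
  · rw [h, a2] at a1
    exact left_eq_add.1 a1
  · have e1 : (-(lo 1 * up u)).1 0 0 = -((lo 1 * up u).1 0 0) := rfl
    have e2 : (-(lo 1 * up u)).1 1 0 = -((lo 1 * up u).1 1 0) := rfl
    rw [h, e1, a2] at a1
    rw [h, e2, a4] at a3
    rw [a3] at a1
    exact left_eq_add.1 a1

variable {W : Type*} [Group W] (cs : CoxeterSystem M W)

include cs in
/-- `X_b ⊓ C(X_{-b}) = 1` -/
theorem eq_one_of_comm {b : Fin l → ℤ} (hb : IsRoot cs hp.isCartan b) {x : ↥(D.group k)} (hx : x ∈ XX D l k b)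
    (hc : ∀ y ∈ XX D l k (-b), x * y = y * x) : x = 1 := by
  obtain ⟨s, hs, rfl⟩ := (isRoot_iff hp cs b).1 hb
  obtain ⟨u, rfl⟩ : ∃ u, x = xs hp.inList s u := by
    obtain ⟨u, hu⟩ := (mem_XX_vec hp hs).1 hx
    exact ⟨u, Subtype.ext hu⟩
  have hns := neg_lt hp.inList hs
  have h1 := hc (xs hp.inList (D.neg s) 1) (by rw [← vec_neg hp hs]; exact xs_mem hp hns 1)
  rw [← ps_up hp hs, ← ps_lo hp hs, ← map_mul, ← map_mul] at h1
  have h2 : ps hp hs (up u * lo 1 * (lo 1 * up u)⁻¹) = 1 := by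
    rw [map_mul, map_inv, h1, mul_inv_cancel]
  have h3 : up u * lo 1 = lo 1 * up u ∨ up u * lo 1 = -(lo 1 * up u) := by
    rcases ps_ker hp hs h2 with h3 | h3
    · exact Or.inl (mul_inv_eq_one.1 h3)
    · right
      rw [mul_inv_eq_iff_eq_mul, neg_one_mul] at h3
      exact h3
  rw [sl_comm h3]
  exact xs_zero hp s

end ker

section dec

variable {Y : Type*} [Group Y]

/-- three commuting subgroups -/
theorem mem_sup3 {A B C : Subgroup Y} (hab : ∀ a ∈ A, ∀ b ∈ B, a * b = b * a) (hac : ∀ a ∈ A, ∀ c ∈ C, a * c = c * a)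
    (hbc : ∀ b ∈ B, ∀ c ∈ C, b * c = c * b) {y : Y} (hy : y ∈ A ⊔ B ⊔ C) :
    ∃ a ∈ A, ∃ b ∈ B, ∃ c ∈ C, y = a * b * c := by
  let S : Subgroup Y :=
    { carrier := {y | ∃ a ∈ A, ∃ b ∈ B, ∃ c ∈ C, y = a * b * c}
      one_mem' := ⟨1, A.one_mem, 1, B.one_mem, 1, C.one_mem, by simp⟩
      mul_mem' := by
        rintro _ _ ⟨a, ha, b, hb, c, hc, rfl⟩ ⟨a', ha', b', hb', c', hc', rfl⟩
        refine ⟨a * a', A.mul_mem ha ha', b * b', B.mul_mem hb hb', c * c', C.mul_mem hc hc', ?_⟩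
        calc a * b * c * (a' * b' * c') = a * b * (c * a') * b' * c' := by group
          _ = a * (b * a') * (c * b') * c' := by rw [← hac a' ha' c hc]; group
          _ = a * (a' * b) * (b' * c) * c' := by rw [← hab a' ha' b hb, ← hbc b' hb' c hc]
          _ = a * a' * (b * b') * (c * c') := by group
      inv_mem' := by
        rintro _ ⟨a, ha, b, hb, c, hc, rfl⟩
        refine ⟨a⁻¹, A.inv_mem ha, b⁻¹, B.inv_mem hb, c⁻¹, C.inv_mem hc, ?_⟩
        have h1 := hab _ (A.inv_mem ha) _ (B.inv_mem hb)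
        have h2 := hac _ (A.inv_mem ha) _ (C.inv_mem hc)
        have h3 := hbc _ (B.inv_mem hb) _ (C.inv_mem hc)
        calc (a * b * c)⁻¹ = c⁻¹ * b⁻¹ * a⁻¹ := by group
          _ = b⁻¹ * (c⁻¹ * a⁻¹) := by rw [← h3]; group
          _ = b⁻¹ * a⁻¹ * c⁻¹ := by rw [← h2]; group
          _ = a⁻¹ * b⁻¹ * c⁻¹ := by rw [← h1] }
  have h1 : A ⊔ B ⊔ C ≤ S := by
    refine sup_le (sup_le ?_ ?_) ?_
    · exact fun a ha => ⟨a, ha, 1, B.one_mem, 1, C.one_mem, by simp⟩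
    · exact fun b hb => ⟨1, A.one_mem, b, hb, 1, C.one_mem, by simp⟩
    · exact fun c hc => ⟨1, A.one_mem, 1, B.one_mem, c, hc, by simp⟩
  exact h1 hy

end dec

section

variable {D : ChevalleyDatum} {l : ℕ} {M : CoxeterMatrix (Fin l)} (hp : IsType D l M) {k : Type} [Field k]
  {W : Type*} [Group W] [Finite W] (cs : CoxeterSystem M W)
variable {r e : ℕ} {α : MulAut ↥(D.group k)}
  {θ : (Fin l → ℤ) ≃+ (Fin l → ℤ)} {b : Fin l → ℤ}

include cs hp in
theorem cm_orth (hs : SL cs hp.isCartan) {x y : Fin l → ℤ} (hx : IsRoot cs hp.isCartan x)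
    (hy : IsRoot cs hp.isCartan y) (h0 : cpr cs hp.isCartan x y = 0) : ∀ g ∈ XX D l k x, ∀ g' ∈ XX D l k y,
      g * g' = g' * g := by
  exact Cfsg.Agent.GenExc.Chev.commOK (K := k) hp cs x y hx hy (ne_neg_of_orth hx hy h0.ge)
    (not_add_of_orth hs hx hy h0.ge)

section O

variable (O : O3 cs hp.isCartan θ b) (hsl : SL cs hp.isCartan)

include O hsl

/-- the decomposition of the group of an orbit -/
theorem orb_dec {y : ↥(D.group k)} (hy : y ∈ RGD.Sup (XX D l k) (orb θ b)) :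
    ∃ x₀ ∈ XX D l k b, ∃ x₁ ∈ XX D l k (θ b), ∃ x₂ ∈ XX D l k (θ (θ b)), y = x₀ * x₁ * x₂ := by
  refine mem_sup3 (cm_orth (k := k) hp cs hsl O.rt O.r1 O.o1) (cm_orth (k := k) hp cs hsl O.rt O.r2 O.o2)
    (cm_orth (k := k) hp cs hsl O.r1 O.r2 (O.o12 hsl)) ?_
  have h1 : RGD.Sup (XX D l k) (orb θ b) ≤ XX D l k b ⊔ XX D l k (θ b) ⊔ XX D l k (θ (θ b)) := by
    refine RGD.Sup_le fun a ha => ?_
    rcases ha with rfl | rfl | rfl
    · exact le_sup_left.trans le_sup_left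
    · exact le_sup_right.trans le_sup_left
    · exact le_sup_right
  exact h1 hy

/-- uniqueness -/
theorem orb_uniq {x₀ x₁ x₂ : ↥(D.group k)} (h0 : x₀ ∈ XX D l k b) (h1 : x₁ ∈ XX D l k (θ b))
    (h2 : x₂ ∈ XX D l k (θ (θ b))) (h : x₀ * x₁ * x₂ = 1) : x₀ = 1 := by
  refine eq_one_of_comm hp cs O.rt h0 fun y hy => ?_
  have h3 : x₀ = (x₁ * x₂)⁻¹ := by rw [eq_inv_iff_mul_eq_one, ← mul_assoc]; exact h
  have c1 := cm_orth hp cs hsl O.r1 O.rt.neg (by
    rw [cpr_neg_right cs hp.isCartan _ O.rt, hsl _ _ O.r1 O.rt, O.o1, neg_zero]) x₁ h1 y hy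
  have c2 := cm_orth hp cs hsl O.r2 O.rt.neg (by
    rw [cpr_neg_right cs hp.isCartan _ O.rt, hsl _ _ O.r2 O.rt, O.o2, neg_zero]) x₂ h2 y hy
  have c3 : Commute (x₁ * x₂) y := (show Commute x₁ y from c1).mul_left c2
  rw [h3]
  exact c3.inv_left

end O

theorem O3.shift (O : O3 cs hp.isCartan θ b) (hsl : SL cs hp.isCartan) : O3 cs hp.isCartan θ (θ b) where
  root := O.root
  rt := O.r1
  per := by rw [O.per]
  o1 := O.o12 hsl
  o2 := by
    rw [O.per, hsl _ _ O.r1 O.rt]; exact O.o1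

/-- strong orthogonality -/
theorem so_of_sl (hsl : SL cs hp.isCartan) {x y : Fin l → ℤ} (hx : IsRoot cs hp.isCartan x)
    (hy : IsRoot cs hp.isCartan y) (h0 : cpr cs hp.isCartan x y = 0) : SO cs hp.isCartan x y := by
  refine ⟨ne_of_orth hy h0.le, ne_neg_of_orth hx hy h0.ge, fun i j hi hj hz => ?_⟩
  have e1 : cpr cs hp.isCartan (i • x + j • y) x = 2 * i := by
    rw [cpr_add cs _ _ _ hx, cpr_smul cs _ _ _ hx, cpr_smul cs _ _ _ hx, cpr_self cs _ hx, hsl y x hy hx, h0]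
    ring
  have e2 : cpr cs hp.isCartan (i • x + j • y) y = 2 * j := by
    rw [cpr_add cs _ _ _ hy, cpr_smul cs _ _ _ hy, cpr_smul cs _ _ _ hy, cpr_self cs _ hy, h0]
    ring
  rcases hsl.cases hz hx with h2 | h2 | h2
  · rw [h2.1, h0] at e2
    omega
  · rw [h2.1, cpr_neg_left _ hy, h0] at e2
    omega
  · omega

section O2

variable [IsAlgClosed k] (hk : LocFin k) [Fact r.Prime] [CharP k r] (hα : IsFrob r e α)
  (F : Fr cs hp.isCartan (TT D k) (XX D l k) α θ) (O : O3 cs hp.isCartan θ b) (hsl : SL cs hp.isCartan)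

include F O hsl in
/-- **the fixed points in the group of an orbit** -/
theorem orb_fix {y : ↥(D.group k)} (hy : y ∈ RGD.Sup (XX D l k) (orb θ b)) (hα : α y = y) :
    ∃ x ∈ XX D l k b, α (α (α x)) = x ∧ y = cu α x := by
  obtain ⟨x₀, h0, x₁, h1, x₂, h2, rfl⟩ := orb_dec hp cs O hsl hy
  have a0 : α x₀ ∈ XX D l k (θ b) := (F.map b O.rt x₀).2 h0
  have a1 : α x₁ ∈ XX D l k (θ (θ b)) := (F.map _ O.r1 x₁).2 h1
  have a2 : α x₂ ∈ XX D l k b := by
    have := (F.map _ O.r2 x₂).2 h2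
    rwa [O.per] at this
  have c01 := cm_orth (k := k) hp cs hsl O.rt O.r1 O.o1
  have c02 := cm_orth (k := k) hp cs hsl O.rt O.r2 O.o2
  have c12 := cm_orth (k := k) hp cs hsl O.r1 O.r2 (O.o12 hsl)
  have e1 : α x₂ * α x₀ * α x₁ = x₀ * x₁ * x₂ := by
    rw [← hα, map_mul, map_mul]
    calc α x₂ * α x₀ * α x₁ = α x₂ * (α x₀ * α x₁) := by group
      _ = α x₀ * α x₁ * α x₂ := by
        rw [← mul_assoc, c01 _ a2 _ a0, mul_assoc, c02 _ a2 _ a1, ← mul_assoc]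
  have e2 : (x₀⁻¹ * α x₂) * (x₁⁻¹ * α x₀) * (x₂⁻¹ * α x₁) = 1 := by
    have i1 := c01 _ ((XX D l k b).mul_mem ((XX D l k b).inv_mem h0) a2) _ ((XX D l k (θ b)).inv_mem h1)
    have i2 := c02 _ ((XX D l k b).mul_mem ((XX D l k b).inv_mem h0) a2) _ ((XX D l k (θ (θ b))).inv_mem h2)
    have i3 := c12 _ (a0) _ ((XX D l k (θ (θ b))).inv_mem h2)
    calc (x₀⁻¹ * α x₂) * (x₁⁻¹ * α x₀) * (x₂⁻¹ * α x₁)
        = (x₀⁻¹ * α x₂ * x₁⁻¹) * (α x₀ * x₂⁻¹) * α x₁ := by group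
      _ = x₁⁻¹ * ((x₀⁻¹ * α x₂) * x₂⁻¹) * α x₀ * α x₁ := by rw [i1, i3]; group
      _ = x₁⁻¹ * x₂⁻¹ * x₀⁻¹ * (α x₂ * α x₀ * α x₁) := by rw [i2]; group
      _ = x₁⁻¹ * x₂⁻¹ * (x₁ * x₂) := by rw [e1]; group
      _ = 1 := by
        rw [c12 _ h1 _ h2]; group
  have u0 := orb_uniq hp cs O hsl ((XX D l k b).mul_mem ((XX D l k b).inv_mem h0) a2)
    ((XX D l k (θ b)).mul_mem ((XX D l k (θ b)).inv_mem h1) a0)
    ((XX D l k (θ (θ b))).mul_mem ((XX D l k (θ (θ b))).inv_mem h2) a1) e2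
  have u1 := orb_uniq hp cs (O3.shift hp cs O hsl) hsl ((XX D l k (θ b)).mul_mem ((XX D l k (θ b)).inv_mem h1) a0)
    ((XX D l k (θ (θ b))).mul_mem ((XX D l k (θ (θ b))).inv_mem h2) a1) (one_mem _) (by
      rw [u0, one_mul] at e2
      rw [mul_one, e2])
  rw [u0, u1, one_mul, one_mul] at e2
  have f0 : α x₂ = x₀ := (inv_mul_eq_one.1 u0).symm
  have f1 : α x₀ = x₁ := (inv_mul_eq_one.1 u1).symm
  have f2 : α x₁ = x₂ := (inv_mul_eq_one.1 e2).symm
  refine ⟨x₀, h0, by rw [f1, f2, f0], ?_⟩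
  unfold cu
  rw [f1, f2]

include hk hα F in
/-- the homomorphism `SL₂(q³) → SL₂(k)` and `α³`; after helper605's `exists_psi` -/
theorem exists_phi0 {s : ℕ} (hs : s < D.nroots) {a : ℕ} (hq : 1 < (r ^ e) ^ a)
    (hθ : θ^[a] (vec D l s) = vec D l s)
    {E : Type*} [Field E] [Fintype E] (hE : Fintype.card E = (r ^ e) ^ a) (j : E →+* k) :
    ∃ φ₀ : Matrix.SpecialLinearGroup (Fin 2) E →* Matrix.SpecialLinearGroup (Fin 2) k,
      (∀ g, (α ^ a) (ps hp hs (φ₀ g)) = ps hp hs (φ₀ g)) ∧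
      (∀ c, c ≠ 0 → φ₀ (hS c) = hS (j c)) ∧
      (∀ u, (α ^ a) (xs hp.inList s u) = xs hp.inList s u → ∃ c, φ₀ (up c) = up u) ∧
      (∀ c, ∃ u, φ₀ (up c) = up u) ∧
      (∀ u, (α ^ a) (xs hp.inList (D.neg s) u) = xs hp.inList (D.neg s) u → ∃ c, φ₀ (lo c) = lo u) ∧
      (∀ c, ∃ u, φ₀ (lo c) = lo u) ∧ ∀ A, (φ₀ A = 1 ∨ φ₀ A = -1) → A = 1 ∨ A = -1 := by
  obtain ⟨c, hc, h1, h2⟩ := act_pow hp cs hk hα F hs hθ
  set Q := (r ^ e) ^ a with hQ
  -- `c v ^ Q = v`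
  obtain ⟨v, hv⟩ := IsAlgClosed.exists_pow_nat_eq c⁻¹ (n := Q - 1) (by omega)
  have hv0 : v ≠ 0 := by
    rintro rfl
    rw [zero_pow (by omega)] at hv
    exact inv_ne_zero hc hv.symm
  have hcv : c * v ^ Q = v := by
    have e1 : v ^ Q = v ^ (Q - 1) * v := by
      rw [← pow_succ]
      congr 1
      omega
    rw [e1, hv, ← mul_assoc, mul_inv_cancel₀ hc, one_mul]
  have hcv' : c⁻¹ * v⁻¹ ^ Q = v⁻¹ := by rw [inv_pow, ← mul_inv, hcv]
  obtain ⟨μ, hμ0, hμ⟩ := exists_sqrt hv0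
  have hEj : ∀ t : E, j t ^ Q = j t := fun t => by rw [← map_pow, ← hE, FiniteField.pow_card]
  let φ₀ : Matrix.SpecialLinearGroup (Fin 2) E →* Matrix.SpecialLinearGroup (Fin 2) k :=
    (H605.MX.cjS μ).comp (Matrix.SpecialLinearGroup.map j)
  have u1 : ∀ t, φ₀ (up t) = up (v * j t) := fun t => by
    show H605.MX.cjS μ (Matrix.SpecialLinearGroup.map j (up t)) = _
    rw [map_up, H605.MX.cjS_up hμ0, hμ]
  have u2 : ∀ t, φ₀ (lo t) = lo (v⁻¹ * j t) := fun t => by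
    show H605.MX.cjS μ (Matrix.SpecialLinearGroup.map j (lo t)) = _
    rw [map_lo, H605.MX.cjS_lo hμ0, hμ]
  have hfix : ∀ g, (α ^ a) (ps hp hs (φ₀ g)) = ps hp hs (φ₀ g) := by
    intro g
    have h3 : (α ^ a).toMonoidHom.comp ((ps hp hs).comp φ₀) = (ps hp hs).comp φ₀ := by
      refine hom_ext2 (fun t => ?_) fun t => ?_
      · show (α ^ a) (ps hp hs (φ₀ (up t))) = ps hp hs (φ₀ (up t))
        rw [u1, ps_up, h1, mul_pow, hEj, ← mul_assoc, hcv]
      · show (α ^ a) (ps hp hs (φ₀ (lo t))) = ps hp hs (φ₀ (lo t))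
        rw [u2, ps_lo, h2, mul_pow, hEj, ← mul_assoc, hcv']
    exact DFunLike.congr_fun h3 g
  have hns := neg_lt hp.inList hs
  refine ⟨φ₀, hfix, fun d hd => ?_, fun u hu => ?_, fun t => ⟨_, u1 t⟩, fun u hu => ?_, fun t => ⟨_, u2 t⟩, ?_⟩
  · show H605.MX.cjS μ (Matrix.SpecialLinearGroup.map j (hS d)) = _
    rw [map_hS, H605.MX.cjS_hS hμ0 ((map_ne_zero j).2 hd)]
  · rw [h1] at hu
    have h3 := xs_inj hp hs hu
    have h4 : (u / v) ^ Fintype.card E = u / v := by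
      rw [hE, div_pow, div_eq_div_iff (pow_ne_zero _ hv0) hv0]
      have h5 : u ^ Q * v = u ^ Q * (c * v ^ Q) := by rw [hcv]
      rw [h5]
      have h6 : u ^ Q * (c * v ^ Q) = (c * u ^ Q) * v ^ Q := by ring
      rw [h6, h3]
    obtain ⟨d, hd⟩ := Cfsg.Agent.H390.PslSpec.mem_range_of_pow_card j h4
    exact ⟨d, by rw [u1, hd, mul_div_cancel₀ _ hv0]⟩
  · rw [h2] at hu
    have h3 := xs_inj hp hns hu
    have h4 : (u * v) ^ Fintype.card E = u * v := by
      rw [hE, mul_pow]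
      calc u ^ Q * v ^ Q = (c⁻¹ * u ^ Q) * (c * v ^ Q) := by field_simp
        _ = u * v := by rw [h3, hcv]
    obtain ⟨d, hd⟩ := Cfsg.Agent.H390.PslSpec.mem_range_of_pow_card j h4
    exact ⟨d, by rw [u2, hd]; congr 1; field_simp⟩
  · have hinj : Function.Injective φ₀ := by
      intro A B hAB
      have h3 : Matrix.SpecialLinearGroup.map j A = Matrix.SpecialLinearGroup.map j B :=
        (MulAut.conj (hS μ)).injective hAB
      apply Subtype.ext
      ext i i'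
      have h4 := congrArg (fun C : Matrix.SpecialLinearGroup (Fin 2) k => C.1 i i') h3
      exact j.injective h4
    rintro A (hA | hA)
    · left
      exact hinj (by rw [hA, map_one])
    · right
      apply hinj
      rw [hA]
      show -1 = hS μ * Matrix.SpecialLinearGroup.map j (-1) * (hS μ)⁻¹
      have h3 : Matrix.SpecialLinearGroup.map j (-1 : Matrix.SpecialLinearGroup (Fin 2) E) = -1 := by
        apply Subtype.ext
        ext i i'
        show j ((-1 : Matrix (Fin 2) (Fin 2) E) i i') = (-1 : Matrix (Fin 2) (Fin 2) k) i i'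
        rw [Matrix.neg_apply, Matrix.neg_apply, map_neg]
        congr 1
        by_cases h : i = i'
        · subst h
          rw [Matrix.one_apply_eq, Matrix.one_apply_eq, map_one]
        · rw [Matrix.one_apply_ne h, Matrix.one_apply_ne h, map_zero]
      rw [h3, mul_neg, mul_one, neg_mul, mul_inv_cancel]

/-! ### the main theorem -/

/-- an element commuting with `up 1` and `lo 1` modulo `± 1` is `± 1` -/
theorem sl_central {B : Matrix.SpecialLinearGroup (Fin 2) k} (hu : B * up 1 = up 1 * B ∨ B * up 1 = -(up 1 * B))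
    (hl : B * lo 1 = lo 1 * B ∨ B * lo 1 = -(lo 1 * B)) : B = 1 ∨ B = -1 := by
  have hdet : B.1 0 0 * B.1 1 1 - B.1 0 1 * B.1 1 0 = 1 := by
    have := B.2
    rwa [Matrix.det_fin_two] at this
  have m1 : (B * up 1).1 = !![B.1 0 0, B.1 0 0 + B.1 0 1; B.1 1 0, B.1 1 0 + B.1 1 1] := by
    change B.1 * !![1, 1; 0, 1] = _
    ext i j
    fin_cases i <;> fin_cases j <;> simp [Matrix.mul_apply, Fin.sum_univ_two]
  have m2 : (up 1 * B).1 = !![B.1 0 0 + B.1 1 0, B.1 0 1 + B.1 1 1; B.1 1 0, B.1 1 1] := by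
    change !![1, 1; 0, 1] * B.1 = _
    ext i j
    fin_cases i <;> fin_cases j <;> simp [Matrix.mul_apply, Fin.sum_univ_two]
  have m3 : (B * lo 1).1 = !![B.1 0 0 + B.1 0 1, B.1 0 1; B.1 1 0 + B.1 1 1, B.1 1 1] := by
    change B.1 * !![1, 0; 1, 1] = _
    ext i j
    fin_cases i <;> fin_cases j <;> simp [Matrix.mul_apply, Fin.sum_univ_two]
  have m4 : (lo 1 * B).1 = !![B.1 0 0, B.1 0 1; B.1 0 0 + B.1 1 0, B.1 0 1 + B.1 1 1] := by
    change !![1, 0; 1, 1] * B.1 = _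
    ext i j
    fin_cases i <;> fin_cases j <;> simp [Matrix.mul_apply, Fin.sum_univ_two]
  have e1 : ∀ (C C' : Matrix.SpecialLinearGroup (Fin 2) k), C = -C' → ∀ i j, C.1 i j = -(C'.1 i j) := by
    rintro _ C' rfl i j
    rfl
  have e2 : ∀ (C C' : Matrix.SpecialLinearGroup (Fin 2) k), C = C' → ∀ i j, C.1 i j = C'.1 i j := by
    rintro _ C' rfl i j
    rfl
  have key : B * up 1 = up 1 * B → B * lo 1 = lo 1 * B → B = 1 ∨ B = -1 := by
    intro hu hl
    have a1 := e2 _ _ hu 0 0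
    have a2 := e2 _ _ hu 0 1
    have a3 := e2 _ _ hl 0 0
    rw [m1, m2] at a1 a2
    rw [m3, m4] at a3
    change B.1 0 0 = B.1 0 0 + B.1 1 0 at a1
    change B.1 0 0 + B.1 0 1 = B.1 0 1 + B.1 1 1 at a2
    change B.1 0 0 + B.1 0 1 = B.1 0 0 at a3
    have b1 : B.1 1 0 = 0 := by linear_combination -a1
    have b2 : B.1 0 1 = 0 := by linear_combination a3
    have b3 : B.1 0 0 = B.1 1 1 := by linear_combination a2
    rw [b1, b2, ← b3] at hdet
    have h4 : (B.1 0 0 - 1) * (B.1 0 0 + 1) = 0 := by linear_combination hdet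
    rcases mul_eq_zero.1 h4 with h5 | h5
    · left
      have h6 := sub_eq_zero.1 h5
      apply Subtype.ext
      change B.1 = (1 : Matrix (Fin 2) (Fin 2) k)
      ext i j
      fin_cases i <;> fin_cases j
      · exact h6
      · exact b2
      · exact b1
      · change B.1 1 1 = 1
        rw [← b3, h6]
    · right
      have h6 := eq_neg_of_add_eq_zero_left h5
      apply Subtype.ext
      change B.1 = -(1 : Matrix (Fin 2) (Fin 2) k)
      ext i j
      fin_cases i <;> fin_cases j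
      · exact h6
      · change B.1 0 1 = -0
        rw [b2, neg_zero]
      · change B.1 1 0 = -0
        rw [b1, neg_zero]
      · change B.1 1 1 = -1
        rw [← b3, h6]
  by_cases h2 : (2 : k) = 0
  · have hn : ∀ C : Matrix.SpecialLinearGroup (Fin 2) k, -C = C := by
      intro C
      apply Subtype.ext
      ext i j
      change -(C.1 i j) = C.1 i j
      linear_combination (-C.1 i j) * h2
    rw [hn, or_self] at hu hl
    exact key hu hl
  · have hl' : ¬ (B * lo 1 = -(lo 1 * B)) := by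
      intro h
      have a1 := e1 _ _ h 0 0
      have a2 := e1 _ _ h 0 1
      have a3 := e1 _ _ h 1 1
      rw [m3, m4] at a1 a2 a3
      change B.1 0 0 + B.1 0 1 = -(B.1 0 0) at a1
      change B.1 0 1 = -(B.1 0 1) at a2
      change B.1 1 1 = -(B.1 0 1 + B.1 1 1) at a3
      have b2 : B.1 0 1 = 0 := by
        have : (2 : k) * B.1 0 1 = 0 := by linear_combination a2
        exact (mul_eq_zero.1 this).resolve_left h2
      have b3 : B.1 0 0 = 0 := by
        have : (2 : k) * B.1 0 0 = 0 := by linear_combination a1 - b2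
        exact (mul_eq_zero.1 this).resolve_left h2
      rw [b2, b3] at hdet
      exact one_ne_zero (by linear_combination -hdet : (1 : k) = 0)
    have hu' : ¬ (B * up 1 = -(up 1 * B)) := by
      intro h
      have a1 := e1 _ _ h 0 0
      have a2 := e1 _ _ h 1 0
      rw [m1, m2] at a1 a2
      change B.1 0 0 = -(B.1 0 0 + B.1 1 0) at a1
      change B.1 1 0 = -(B.1 1 0) at a2
      have b2 : B.1 1 0 = 0 := by
        have : (2 : k) * B.1 1 0 = 0 := by linear_combination a2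
        exact (mul_eq_zero.1 this).resolve_left h2
      have b3 : B.1 0 0 = 0 := by
        have : (2 : k) * B.1 0 0 = 0 := by linear_combination a1 - b2
        exact (mul_eq_zero.1 this).resolve_left h2
      rw [b2, b3] at hdet
      exact one_ne_zero (by linear_combination -hdet : (1 : k) = 0)
    exact key (hu.resolve_right hu') (hl.resolve_right hl')

include hk hα F O hsl in
/-- **The homomorphism `SL₂(q³) → Fix α`.** -/
theorem exists_psi3 (he : 0 < e) : ∃ (E : Type) (_ : Field E) (_ : Fintype E) (j : E →+* k)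
    (ψ : Matrix.SpecialLinearGroup (Fin 2) E →* ↥(D.group k)), Fintype.card E = (r ^ e) ^ 3 ∧
      (∀ y, y ∈ RGD.Sup (XX D l k) (orb θ b) ⊓ fixedSubgroup α ↔ ∃ t, ψ (up t) = y) ∧
      (∀ y, y ∈ RGD.Sup (XX D l k) (orb θ (-b)) ⊓ fixedSubgroup α ↔ ∃ t, ψ (lo t) = y) ∧
      (∀ A, ψ A = 1 → A = 1 ∨ A = -1) ∧
      ∀ c, c ≠ 0 → ψ (hS c) ∈ TT D k ∧ ∀ x, IsRoot cs hp.isCartan x → cpr cs hp.isCartan x (θ b) = 0 →
        cpr cs hp.isCartan x (θ (θ b)) = 0 → ch hp x (ψ (hS c)) = j c ^ cpr cs hp.isCartan x b := by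
  have hr1 : 1 < r := (Fact.out : r.Prime).one_lt
  have hq1 : 1 < r ^ e := Nat.one_lt_pow he.ne' hr1
  have hq : 1 < (r ^ e) ^ 3 := Nat.one_lt_pow (by norm_num) hq1
  obtain ⟨s, hs, hsb⟩ := (isRoot_iff hp cs b).1 O.rt
  have hns := neg_lt hp.inList hs
  have hnb : vec D l (D.neg s) = -b := by rw [vec_neg hp hs, hsb]
  have hθ : θ^[3] (vec D l s) = vec D l s := by
    rw [hsb]
    exact O.per
  have hSO : ∀ i, 0 < i → i < 3 → SO cs hp.isCartan (vec D l s) (θ^[i] (vec D l s)) := by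
    intro i hi hi3
    rw [hsb]
    rcases (by omega : i = 1 ∨ i = 2) with rfl | rfl
    · exact so_of_sl hp cs hsl O.rt O.r1 O.o1
    · exact so_of_sl hp cs hsl O.rt O.r2 O.o2
  obtain ⟨E, _, _, j, hE⟩ := exists_field (k := k) r e 3 hq
  have H := orb_comm hp cs hk hα F hs hSO
  obtain ⟨φ₀, f1, f2, f3, f4, f5, f6, f7⟩ := exists_phi0 hp cs hk hα F hs hq hθ hE j
  have hcu : ∀ g, dl α (ps hp hs) 3 g = cu α (ps hp hs g) := fun g => by
    rw [dl_succ, dl_succ, dl_succ, dl_zero, one_mul]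
    rfl
  have hψ : ∀ g, ((dlHom H).comp φ₀) g = cu α (ps hp hs (φ₀ g)) := fun g => hcu _
  have hfx : ∀ g, α (((dlHom H).comp φ₀) g) = ((dlHom H).comp φ₀) g := fun g => alpha_dl H (by norm_num) (f1 g)
  have hm : ∀ {x : Fin l → ℤ} {y : ↥(D.group k)}, IsRoot cs hp.isCartan x → y ∈ XX D l k x →
      cu α y ∈ RGD.Sup (XX D l k) (orb θ x) := by
    intro x y hx hy
    have h1 : α y ∈ XX D l k (θ x) := (F.map _ hx _).2 hy
    have h2 : α (α y) ∈ XX D l k (θ (θ x)) := (F.map _ ((F.root _).2 hx) _).2 h1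
    exact Subgroup.mul_mem _ (Subgroup.mul_mem _
      (RGD.le_Sup (X := XX D l k) (S := orb θ x) (Or.inl rfl) hy)
      (RGD.le_Sup (X := XX D l k) (S := orb θ x) (Or.inr (Or.inl rfl)) h1))
      (RGD.le_Sup (X := XX D l k) (S := orb θ x) (Or.inr (Or.inr rfl)) h2)
  refine ⟨E, inferInstance, inferInstance, j, (dlHom H).comp φ₀, hE, fun y => ⟨fun hy => ?_, ?_⟩,
    fun y => ⟨fun hy => ?_, ?_⟩, fun A hA => ?_, fun c hc => ?_⟩
  · obtain ⟨x, hx, h3, rfl⟩ := orb_fix hp cs F O hsl hy.1 hy.2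
    obtain ⟨u, rfl⟩ : ∃ u, x = xs hp.inList s u := by
      obtain ⟨u, hu⟩ := (mem_XX_vec hp hs).1 (hsb ▸ hx)
      exact ⟨u, Subtype.ext hu⟩
    obtain ⟨c, hc⟩ := f3 u h3
    exact ⟨c, by rw [hψ, hc, ps_up]⟩
  · rintro ⟨c, rfl⟩
    obtain ⟨u, hu⟩ := f4 c
    refine ⟨?_, hfx _⟩
    rw [hψ, hu, ps_up]
    exact hm O.rt (hsb ▸ xs_mem hp hs u)
  · obtain ⟨x, hx, h3, rfl⟩ := orb_fix hp cs F O.neg hsl hy.1 hy.2
    obtain ⟨u, rfl⟩ : ∃ u, x = xs hp.inList (D.neg s) u := by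
      obtain ⟨u, hu⟩ := (mem_XX_vec hp hns).1 (hnb ▸ hx)
      exact ⟨u, Subtype.ext hu⟩
    obtain ⟨c, hc⟩ := f5 u h3
    exact ⟨c, by rw [hψ, hc, ps_lo]⟩
  · rintro ⟨c, rfl⟩
    obtain ⟨u, hu⟩ := f6 c
    refine ⟨?_, hfx _⟩
    rw [hψ, hu, ps_lo]
    exact hm O.rt.neg (hnb ▸ xs_mem hp hns u)
  · refine f7 A ?_
    rw [hψ] at hA
    set B := φ₀ A
    have hc : ∀ g, ps hp hs B * ps hp hs g = ps hp hs g * ps hp hs B := by
      intro g
      have h1 := H 1 (by norm_num) (by norm_num) g B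
      have h2 := H 2 (by norm_num) (by norm_num) g B
      have e1 : ps hp hs B = (α (ps hp hs B) * α (α (ps hp hs B)))⁻¹ := by
        rw [eq_inv_iff_mul_eq_one, ← mul_assoc]
        exact hA
      have c1 : Commute (ps hp hs g) (α (ps hp hs B)) := h1
      have c2 : Commute (ps hp hs g) (α (α (ps hp hs B))) := h2
      rw [e1]
      exact ((c1.mul_right c2).inv_right).symm
    have key : ∀ g, B * g = g * B ∨ B * g = -(g * B) := by
      intro g
      have h2 : ps hp hs (B * g * (g * B)⁻¹) = 1 := by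
        rw [map_mul, map_inv, map_mul, map_mul, hc, mul_inv_cancel]
      rcases ps_ker hp hs h2 with h3 | h3
      · exact Or.inl (mul_inv_eq_one.1 h3)
      · right
        rw [mul_inv_eq_iff_eq_mul, neg_one_mul] at h3
        exact h3
    exact sl_central (key _) (key _)
  · have hjc : j c ≠ 0 := (map_ne_zero j).2 hc
    have h1 : ((dlHom H).comp φ₀) (hS c) = hTh hp hs α 3 (j c) := by
      change dl α (ps hp hs) 3 (φ₀ (hS c)) = _
      rw [f2 c hc]
      rfl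
    rw [h1]
    have hT := hTh_mem hp cs hk hα F hs 3 hjc
    refine ⟨hT, fun x hx hx1 hx2 => ?_⟩
    rw [← cX_root hp cs hT hx, cX_hTh hp cs hk hα F hs 3 hjc, Finset.sum_range_succ, Finset.sum_range_succ,
      Finset.sum_range_succ, Finset.sum_range_zero]
    congr 1
    have e0 : θ^[0] (vec D l s) = b := hsb
    have e1 : θ^[1] (vec D l s) = θ b := congrArg θ hsb
    have e2 : θ^[2] (vec D l s) = θ (θ b) := congrArg (fun z => θ (θ z)) hsb
    rw [e0, e1, e2, hx1, hx2]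
    ring

include hk hα F O hsl in
/-- **The `SL₂(q³)` of an orbit.** -/
theorem imgK_orb (he : 0 < e) : ImgK (r ^ (3 * e)) (RGD.Sup (XX D l k) (orb θ b) ⊓ fixedSubgroup α)
    (RGD.Sup (XX D l k) (orb θ (-b)) ⊓ fixedSubgroup α) := by
  obtain ⟨E, _, _, -, ψ, hE, h1, h2, h3, -⟩ := exists_psi3 hp cs hk hα F O hsl he
  exact ⟨E, inferInstance, inferInstance, ψ, by rw [hE, ← pow_mul, mul_comm], h1, h2, h3⟩

theorem exists_sq_ne {E : Type*} [Field E] [Fintype E] (hE : 4 < Fintype.card E) : ∃ c : E, c ≠ 0 ∧ c ^ 2 ≠ 1 := by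
  classical
  by_contra hcon
  push Not at hcon
  have h7 : (Finset.univ : Finset E) ⊆ {0, 1, -1} := by
    intro x _
    rw [Finset.mem_insert, Finset.mem_insert, Finset.mem_singleton]
    by_cases hx : x = 0
    · exact Or.inl hx
    · right
      have h1 : (x - 1) * (x + 1) = 0 := by linear_combination hcon x hx
      rcases mul_eq_zero.1 h1 with h1 | h1
      · exact Or.inl (sub_eq_zero.1 h1)
      · exact Or.inr (eq_neg_of_add_eq_zero_left h1)
  have h8 := Finset.card_le_card h7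
  rw [Finset.card_univ] at h8
  have h9 : ({0, 1, -1} : Finset E).card ≤ 3 := Finset.card_le_three
  omega

include hk hα F O hsl in
/-- **Torus elements of the `SL₂(q³)` of an orbit.** -/
theorem exists_tor_orb (he : 0 < e) : ∃ h ∈ (RGD.Sup (XX D l k) (orb θ b) ⊓ fixedSubgroup α) ⊔
    (RGD.Sup (XX D l k) (orb θ (-b)) ⊓ fixedSubgroup α), h ∈ TT D k ∧ ∀ x, IsRoot cs hp.isCartan x →
      cpr cs hp.isCartan x (θ b) = 0 → cpr cs hp.isCartan x (θ (θ b)) = 0 →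
        (cpr cs hp.isCartan x b = 1 ∨ cpr cs hp.isCartan x b = 2) → ch hp x h ≠ 1 := by
  obtain ⟨E, _, _, j, ψ, hE, h1, h2, h3, h4⟩ := exists_psi3 hp cs hk hα F O hsl he
  have hr1 : 1 < r := (Fact.out : r.Prime).one_lt
  have hq1 : 1 < r ^ e := Nat.one_lt_pow he.ne' hr1
  have hE8 : 8 ≤ Fintype.card E := by
    rw [hE]
    calc 8 = 2 ^ 3 := by norm_num
      _ ≤ (r ^ e) ^ 3 := Nat.pow_le_pow_left hq1 3
  obtain ⟨c, hc, hc2⟩ := exists_sq_ne (E := E) (by omega)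
  obtain ⟨h5, h6⟩ := h4 c hc
  refine ⟨ψ (hS c), ?_, h5, fun x hx hx1 hx2 hxb => ?_⟩
  · have h : Subgroup.closure (Set.range (up (F := E)) ∪ Set.range (lo (F := E))) ≤
        ((RGD.Sup (XX D l k) (orb θ b) ⊓ fixedSubgroup α) ⊔
          (RGD.Sup (XX D l k) (orb θ (-b)) ⊓ fixedSubgroup α)).comap ψ := by
      rw [Subgroup.closure_le]
      rintro _ (⟨d, rfl⟩ | ⟨d, rfl⟩)
      · exact Subgroup.mem_sup_left ((h1 _).2 ⟨d, rfl⟩)
      · exact Subgroup.mem_sup_right ((h2 _).2 ⟨d, rfl⟩)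
    exact h (mem_closure_SL2 _)
  · rw [h6 x hx hx1 hx2]
    intro h
    rcases hxb with h7 | h7
    · rw [h7, zpow_one] at h
      refine hc2 ?_
      rw [(map_eq_one_iff j j.injective).1 h, one_pow]
    · rw [h7] at h
      refine hc2 ((map_eq_one_iff j j.injective).1 ?_)
      rw [map_pow]
      exact_mod_cast h

end O2

end

end Cfsg.Agent.H675.RG
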