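import Cfsg.Agent.H675.RG.ImgO
import Cfsg.Agent.H46.Gen.A2Hom

/-!
# S3509, `E₆`, `²E₆`: the Heisenberg groups over `F_{q³}` of three orthogonal `A₂` permuted cyclically (helper675)

`Tri cs h (Sx t) θ b c d u v`, `t` a torus element fixed by the frame automorphism `α`, `b = u + v`, `u, v ∉ Sx t`.

* `exists_U` : for every `v₀ ∈ ⟨X_b, X_{θ b}, X_{θ² b}⟩ ⊓ Fix α` there is a subgroup `U` of `Fix α` of exponent dividing
  `r ^ 2`, normalised by `t`, centralised by `v₀`, with `v₀ ∈ cmm U t`;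
* `not_conj1`, `not_conj2` : an element `k` of `Y` does not act on `{x ∈ X_b : α³ x = x}` as `α`, `α²` (degree).
-/

set_option autoImplicit false
set_option linter.unusedSectionVars false

namespace Cfsg.Agent.H675.RG

open CoxeterSystem Cfsg Cfsg.Lie Cfsg.Lie.ChevalleyDatum
open Cfsg.Agent.ChevalleyStructure Cfsg.Agent.ChevalleyStructure.Elts Cfsg.Agent.ChevalleyStructure.CoxeterGeom
  Cfsg.Agent.ChevalleyStructure.CoxeterGeomTypes Cfsg.Agent.ChevalleyStructure.NPerm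
open Cfsg.Agent.Tits.Roots Cfsg.Agent.Tits.Core Cfsg.Agent.Nodes Cfsg.Agent.Nodes.Reps Cfsg.Agent.Nodes.BNOf
  Cfsg.Agent.Nodes.RGDChev Cfsg.Agent.Nodes.Coroot
open Cfsg.Agent.KFacts.RgdField Cfsg.Agent.KFacts.RgdChevCoord Cfsg.Agent.KFacts.RgdSL
open Cfsg.Agent.BpExc Cfsg.Agent.BpExc.TorCent Cfsg.Agent.BpExc.TorChev Cfsg.Agent.BpExc.Tow
  Cfsg.Agent.BpExc.TowChev Cfsg.Agent.BpExc.Fr Cfsg.Agent.BpExc.LangFr
open Cfsg.Agent.H469.Exc Cfsg.Agent.H469.Exc.SigFr Cfsg.Agent.H81.TorOrth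
open Cfsg.Agent.H129.TorusChar
open Cfsg.Agent.H338.RG
open Cfsg.Agent.H380.RC (cmm)
open Cfsg.Agent.H46.Gen (Rt Pr NN xc_add xc_neg xc_commute xc_br NN_sq)
open Cfsg.Agent.BpExc.HX (mem_XX_xc fr_xc)
open scoped commutatorElement

universe u

section pair

variable {D : ChevalleyDatum} {l : ℕ} {M : CoxeterMatrix (Fin l)} (hp : IsType D l M) {k : Type u} [Field k]

include hp in
/-- the Heisenberg group of a pair of roots of type `A₂` -/
theorem hei_of_pr {a b : Fin l → ℤ} (hP : Pr D l a b) :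
    Hei (xc (K := k) hp a) (xc hp b) (xc hp (a + b)) (NN D l a b : k) := by
  have c1 : ∀ t u : k, Commute (xc hp (a + b) t) (xc hp a u) := fun t u => by
    refine (xc_commute hp hP.ra hP.rs ?_ (Or.inr fun m n hm hn => hP.no_comb hp m n hm hn) u t).symm
    exact ((hP.next hp).ne hp)
  have c2 : ∀ t u : k, Commute (xc hp (a + b) t) (xc hp b u) := fun t u => by
    have h' := hP.symm hp
    rw [add_comm a b]
    refine (xc_commute hp h'.ra h'.rs ?_ (Or.inr fun m n hm hn => h'.no_comb hp m n hm hn) u t).symm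
    exact ((h'.next hp).ne hp)
  have hNN : (NN D l a b : k) ≠ 0 := by
    intro h
    have h1 := congrArg (Int.cast : ℤ → k) (NN_sq hp hP)
    rw [Int.cast_mul, h, zero_mul, Int.cast_one] at h1
    exact zero_ne_one h1
  obtain ⟨s, hs, hs'⟩ := hP.rs
  refine ⟨xc_add hp a, xc_add hp b, xc_add hp (a + b), fun c d => ?_, fun c w => (c1 w c).symm, fun d w => (c2 w d).symm,
    hNN, fun c hc => ?_⟩
  · rw [← xc_br hp hP c d, commutatorElement_def]
    group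
  · rw [← hs', ← Cfsg.Agent.H46.Gen.xc_zero hp (vec D l s)] at hc
    exact xc_inj hp hs hc

end pair

section

variable {D : ChevalleyDatum} {l : ℕ} {M : CoxeterMatrix (Fin l)} (hp : IsType D l M) {k : Type} [Field k]
  {W : Type*} [Group W] [Finite W] (cs : CoxeterSystem M W)
variable {r e : ℕ} {α : MulAut ↥(D.group k)}
  {θ : (Fin l → ℤ) ≃+ (Fin l → ℤ)} {S : Set (Fin l → ℤ)} {b c d u v : Fin l → ℤ}

include hp cs in
theorem pr_of_tri (hT : Tri cs hp.isCartan S θ b c d u v) (hsl : SL cs hp.isCartan) : Pr D l u v := by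
  have huv := hT.cpr_uv hsl
  have hbu := hT.cpr_bu hsl
  have hbv := hT.cpr_bv hsl
  have rt : ∀ x, Rt D l x → IsRoot cs hp.isCartan x := fun x hx => (isRoot_iff hp cs x).2 hx
  refine ⟨(isRoot_iff hp cs _).1 hT.uR, (isRoot_iff hp cs _).1 hT.vR, ?_, fun h => ?_, fun h => ?_, fun h => ?_⟩
  · rw [← hT.buv]
    exact (isRoot_iff hp cs _).1 hT.bR
  · have h1 := rt _ h
    rw [sub_eq_add_neg] at h1
    have h2 := cpr_of_add hsl hT.vR hT.uR.neg h1
    rw [cpr_neg_right cs hp.isCartan _ hT.uR, hsl _ _ hT.vR hT.uR, huv] at h2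
    omega
  · have h1 := rt _ h
    have e1 : v + (2 : ℤ) • u = b + u := by rw [hT.buv]; module
    rw [e1] at h1
    exact not_add_of_orth hsl hT.bR hT.uR (by rw [hbu]; norm_num) h1
  · have h1 := rt _ h
    have e1 : u + (2 : ℤ) • v = b + v := by rw [hT.buv]; module
    rw [e1] at h1
    exact not_add_of_orth hsl hT.bR hT.vR (by rw [hbv]; norm_num) h1

include cs in
theorem xc_mem_XX {x : Fin l → ℤ} (hx : IsRoot cs hp.isCartan x) (s : k) : xc hp x s ∈ XX D l k x := by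
  obtain ⟨n, hn, rfl⟩ := (isRoot_iff hp cs x).1 hx
  exact (mem_XX_xc hp hn).2 ⟨s, rfl⟩

include cs in
theorem act_xc {x : Fin l → ℤ} (hx : IsRoot cs hp.isCartan x) {t : ↥(D.group k)} (ht : t ∈ TT D k) (s : k) :
    t * xc hp x s * t⁻¹ = xc hp x (ch hp x t * s) := by
  obtain ⟨n, hn, rfl⟩ := (isRoot_iff hp cs x).1 hx
  exact (act hp hn ht).2 s

variable [IsAlgClosed k] [Fact r.Prime] [CharP k r] (hα : IsFrob r e α)
  (F : Fr cs hp.isCartan (TT D k) (XX D l k) α θ) {t : ↥(D.group k)}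

include hα F in
/-- **The `r`-groups `U`.** -/
theorem exists_U (he : 0 < e) (hT : Tri cs hp.isCartan (Sx cs hp.isCartan (ch hp) t) θ b c d u v)
    (hsl : SL cs hp.isCartan) (ht : t ∈ TT D k) (hfix : α t = t) :
    ∀ v₀ ∈ RGD.Sup (XX D l k) (orb θ b) ⊓ fixedSubgroup α, ∃ U ≤ fixedSubgroup α, (∀ x ∈ U, x ^ r ^ 2 = 1) ∧
      (∀ x ∈ U, t * x * t⁻¹ ∈ U) ∧ (∀ x ∈ U, x * v₀ = v₀ * x) ∧ v₀ ∈ cmm U t := by
  have hP := pr_of_tri hp cs hT hsl
  have h := hei_of_pr (k := k) hp hP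
  -- commuting copies
  have o : ∀ x ∈ ({b, u, v} : Set (Fin l → ℤ)), ∀ y ∈ ({b, u, v} : Set (Fin l → ℤ)), ∀ s s' : k,
      xc hp x s * α (xc hp y s') = α (xc hp y s') * xc hp x s ∧
        xc hp x s * α (α (xc hp y s')) = α (α (xc hp y s')) * xc hp x s := by
    intro x hx y hy s s'
    have rt : ∀ z ∈ ({b, u, v} : Set (Fin l → ℤ)), IsRoot cs hp.isCartan z := by
      rintro z (rfl | rfl | rfl)
      · exact hT.bR
      · exact hT.uR
      · exact hT.vR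
    have m0 := xc_mem_XX (k := k) hp cs (rt x hx) s
    have m1 := (F.map y (rt y hy) _).2 (xc_mem_XX (k := k) hp cs (rt y hy) s')
    have m2 := (F.map _ ((hT.root _).2 (rt y hy)) _).2 m1
    obtain ⟨o1, o2⟩ := hT.ort' x hx y hy
    exact ⟨cm_orth hp cs hsl (rt x hx) ((hT.root _).2 (rt y hy)) o1 _ m0 _ m1,
      cm_orth hp cs hsl (rt x hx) ((hT.root _).2 ((hT.root _).2 (rt y hy))) o2 _ m0 _ m2⟩
  have iu : u ∈ ({b, u, v} : Set (Fin l → ℤ)) := by simp
  have iv : v ∈ ({b, u, v} : Set (Fin l → ℤ)) := by simp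
  have hc : Com α (HH h) := by
    intro y hy y' hy'
    constructor
    · exact com_of_gens (h := h) (β := α.toMonoidHom) (fun s s' => (o u iu u iu s s').1) (fun s s' => (o u iu v iv s s').1)
        (fun s s' => (o v iv u iu s s').1) (fun s s' => (o v iv v iv s s').1) hy hy'
    · exact com_of_gens (h := h) (β := α.toMonoidHom.comp α.toMonoidHom) (fun s s' => (o u iu u iu s s').2)
        (fun s s' => (o u iu v iv s s').2) (fun s s' => (o v iv u iu s s').2) (fun s s' => (o v iv v iv s s').2) hy hy'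
  -- the characters
  have hω : ch hp u t ≠ 0 := by
    obtain ⟨n, hn, hv⟩ := (isRoot_iff hp cs u).1 hT.uR
    rw [← hv]
    exact (act hp hn ht).1
  have hω1 : ch hp u t ≠ 1 := fun h1 => hT.uS ⟨hT.uR, h1⟩
  have hb1 : ch hp b t = 1 := hT.bS.2
  have hv1 : ch hp v t = (ch hp u t)⁻¹ := by
    refine eq_inv_of_mul_eq_one_left ?_
    rw [← hb1, ← cX_root hp cs ht hT.vR, ← cX_root hp cs ht hT.uR, ← cX_root hp cs ht hT.bR,
      hT.buv, (isMC_cX hp ht).add, mul_comm]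
  -- the action of `α ^ 3`
  obtain ⟨θ', F', hθ'⟩ := F.pow 3
  obtain ⟨k1, hk1, a1⟩ := fr_xc hp cs (hα.pow 3) F' hT.uR
  obtain ⟨k2, hk2, a2⟩ := fr_xc hp cs (hα.pow 3) F' hT.vR
  have t1 : θ' u = θ (θ (θ u)) := by rw [hθ']; rfl
  have t2 : θ' v = θ (θ (θ v)) := by rw [hθ']; rfl
  rw [t1] at a1
  rw [t2] at a2
  obtain ⟨U, u1, u2, u3, u4⟩ := heis_main (p := r) h hc hfix hω hω1 (fun s => act_xc hp cs hT.uR ht s)
    (fun s => by rw [act_xc hp cs hT.vR ht s, hv1]) (n := 3 * e) (by omega) hk1 hk2 (by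
      rcases hT.tu with ⟨e1, e2⟩ | ⟨e1, e2⟩
      · left
        rw [e1] at a1
        rw [e2] at a2
        exact ⟨a1, a2⟩
      · right
        rw [e1] at a1
        rw [e2] at a2
        exact ⟨a1, a2⟩)
  rintro v₀ ⟨hv0, hv0'⟩
  obtain ⟨x, hx, h3, rfl⟩ := orb_fix hp cs F hT.o3 hsl hv0 hv0'
  obtain ⟨w, rfl⟩ : ∃ w, x = xc hp (u + v) w := by
    rw [← hT.buv]
    obtain ⟨n, hn, hv⟩ := (isRoot_iff hp cs b).1 hT.bR
    rw [← hv] at hx ⊢
    exact (mem_XX_xc hp hn).1 hx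
  obtain ⟨-, g1, g2⟩ := u4 w h3
  exact ⟨U, u1, u2, u3, g1, g2⟩

/-! ### degrees -/

theorem not_conj_aux {E : Type*} [Field E] [Fintype E] {n m : ℕ} (hE : Fintype.card E = r ^ m) (hn : 0 < n)
    (hnm : n < m) (h : ∀ f : E, f ^ r ^ n = f) : False := by
  have hr1 : 1 < r := (Fact.out : r.Prime).one_lt
  obtain ⟨g, hg⟩ := IsCyclic.exists_generator (α := Eˣ)
  have h1 : orderOf g = Nat.card Eˣ := orderOf_eq_card_of_forall_mem_zpowers hg
  have h2 : Nat.card Eˣ = r ^ m - 1 := by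
    rw [Nat.card_units, Nat.card_eq_fintype_card, hE]
  have h3 : 1 < r ^ n := Nat.one_lt_pow hn.ne' hr1
  have h4 : r ^ n < r ^ m := Nat.pow_lt_pow_right hr1 hnm
  have h5 : g ^ (r ^ n - 1) = 1 := by
    have h6 : g ^ r ^ n = g := Units.ext (h g)
    have h7 : g ^ (r ^ n - 1) * g = 1 * g := by
      rw [← pow_succ, one_mul, Nat.sub_add_cancel h3.le, h6]
    exact mul_right_cancel h7
  have h6 := Nat.le_of_dvd (by omega) (orderOf_dvd_of_pow_eq_one h5)
  rw [h1, h2] at h6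
  omega

include hα F in
theorem not_conj {y : ↥(D.group k)} {γ : (Fin l → ℤ) ≃+ (Fin l → ℤ)}
    (Fy : Fr cs hp.isCartan (TT D k) (XX D l k) (MulAut.conj y) γ) {n : ℕ} {β : MulAut ↥(D.group k)}
    (hβ : IsFrob r n β) {γ' : (Fin l → ℤ) ≃+ (Fin l → ℤ)} (Fβ : Fr cs hp.isCartan (TT D k) (XX D l k) β γ')
    (hn : 0 < n) (hne : n < 3 * e) (hb : IsRoot cs hp.isCartan b) (h3 : θ (θ (θ b)) = b) (hγ : γ b = γ' b) :
    ¬ ∀ x ∈ XX D l k b, α (α (α x)) = x → y * x * y⁻¹ = β x := by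
  intro hcon
  have hr1 : 1 < r := (Fact.out : r.Prime).one_lt
  have he : 0 < e := by omega
  have hq : 1 < (r ^ e) ^ 3 := Nat.one_lt_pow (by norm_num) (Nat.one_lt_pow he.ne' hr1)
  obtain ⟨E, _, _, j, hE⟩ := Cfsg.Agent.H605.MX.exists_field (k := k) r e 3 hq
  have hE' : Fintype.card E = r ^ (3 * e) := by rw [hE, ← pow_mul, mul_comm]
  obtain ⟨κ, hκ, a0⟩ := fr_xc hp cs (IsFrob.conj (p := r) y) Fy hb
  obtain ⟨c1, hc1, a1⟩ := fr_xc hp cs hβ Fβ hb
  obtain ⟨θ', F', hθ'⟩ := F.pow 3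
  obtain ⟨c3, hc3, a3⟩ := fr_xc hp cs (hα.pow 3) F' hb
  have t1 : θ' b = b := by rw [hθ']; exact h3
  rw [t1] at a3
  rw [hγ] at a0
  have hq' : 1 < r ^ (3 * e) := Nat.one_lt_pow (by omega) hr1
  obtain ⟨v, hv⟩ := IsAlgClosed.exists_pow_nat_eq c3⁻¹ (n := r ^ (3 * e) - 1) (by omega)
  have hv0 : v ≠ 0 := by
    rintro rfl
    rw [zero_pow (by omega)] at hv
    exact inv_ne_zero hc3 hv.symm
  have hcv : c3 * v ^ r ^ (3 * e) = v := by
    have e1 : v ^ r ^ (3 * e) = v ^ (r ^ (3 * e) - 1) * v := by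
      rw [← pow_succ]
      congr 1
      omega
    rw [e1, hv, ← mul_assoc, mul_inv_cancel₀ hc3, one_mul]
  obtain ⟨m, hm, hmb⟩ := (isRoot_iff hp cs (γ' b)).1 ((Fβ.root _).2 hb)
  have key : ∀ f : E, κ * (v * j f) = c1 * (v * j f) ^ r ^ n := by
    intro f
    have h4 := hcon _ (xc_mem_XX hp cs hb (v * j f)) (by
      refine (a3 _).trans ?_
      have h5 : c3 * (v * j f) ^ r ^ (3 * e) = v * j f := by
        rw [mul_pow, ← mul_assoc, hcv, ← map_pow, ← hE', FiniteField.pow_card]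
      rw [h5])
    have h5 : xc hp (γ' b) (κ * (v * j f) ^ r ^ 0) = xc hp (γ' b) (c1 * (v * j f) ^ r ^ n) := by
      rw [← a0, ← a1, ← h4]
      rfl
    rw [← hmb] at h5
    have h6 := xc_inj hp hm h5
    rwa [pow_zero, pow_one] at h6
  have h1 := key 1
  rw [map_one, mul_one] at h1
  refine not_conj_aux hE' hn hne fun f => j.injective ?_
  have h2 := key f
  rw [mul_pow, ← mul_assoc, ← mul_assoc, ← h1] at h2
  rw [map_pow]
  exact (mul_left_cancel₀ (mul_ne_zero hκ hv0) h2).symm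

include hα F in
/-- **(G), first power** -/
theorem not_conj1 {y : ↥(D.group k)} {γ : (Fin l → ℤ) ≃+ (Fin l → ℤ)}
    (Fy : Fr cs hp.isCartan (TT D k) (XX D l k) (MulAut.conj y) γ) (he : 0 < e) (hb : IsRoot cs hp.isCartan b)
    (h3 : θ (θ (θ b)) = b) (hγ : γ b = θ b) : ¬ ∀ x ∈ XX D l k b, α (α (α x)) = x → y * x * y⁻¹ = α x :=
  not_conj hp cs hα F Fy hα F he (by omega) hb h3 hγ

include hα F in
/-- **(G), second power** -/
theorem not_conj2 {y : ↥(D.group k)} {γ : (Fin l → ℤ) ≃+ (Fin l → ℤ)}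
    (Fy : Fr cs hp.isCartan (TT D k) (XX D l k) (MulAut.conj y) γ) (he : 0 < e) (hb : IsRoot cs hp.isCartan b)
    (h3 : θ (θ (θ b)) = b) (hγ : γ b = θ (θ b)) :
    ¬ ∀ x ∈ XX D l k b, α (α (α x)) = x → y * x * y⁻¹ = α (α x) := by
  obtain ⟨θ', F', hθ'⟩ := F.pow 2
  have t1 : θ' b = θ (θ b) := by rw [hθ']; rfl
  exact not_conj hp cs hα F Fy (hα.pow 2) F' (by omega) (by omega) hb h3 (hγ.trans t1.symm)

end

end Cfsg.Agent.H675.RG
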