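import Cfsg.Agent.H675.RG.CentM
import Cfsg.Agent.H675.RG.Inst
import Cfsg.Agent.H692.RG.FrUs
import Cfsg.Agent.H194.RG.TriE6
import Cfsg.Agent.S1054

/-!
# S3509, `E₆`, `²E₆`: useful elements of order 3 with `C(t)` of type `3A₂`, components permuted cyclically (helper675)

`k1` : the assembly of K1 (after helper338's plan).
-/

set_option autoImplicit false
set_option linter.unusedSectionVars false

namespace Cfsg.Agent.H675.RG

open CoxeterSystem Cfsg Cfsg.Lie Cfsg.Lie.ChevalleyDatum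
open Cfsg.Agent.ChevalleyStructure Cfsg.Agent.ChevalleyStructure.Elts Cfsg.Agent.ChevalleyStructure.CoxeterGeom
  Cfsg.Agent.ChevalleyStructure.CoxeterGeomTypes Cfsg.Agent.ChevalleyStructure.NPerm
open Cfsg.Agent.Tits.Roots Cfsg.Agent.Tits.Core Cfsg.Agent.Nodes Cfsg.Agent.Nodes.Reps Cfsg.Agent.Nodes.BNOf
  Cfsg.Agent.Nodes.RGDChev Cfsg.Agent.Nodes.Bruhat Cfsg.Agent.Nodes.NormalForm Cfsg.Agent.Nodes.Coroot
open Cfsg.Agent.KFacts.RgdField Cfsg.Agent.KFacts.RgdChevCoord Cfsg.Agent.KFacts.RgdSL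
open Cfsg.Agent.BpExc Cfsg.Agent.BpExc.TorCent Cfsg.Agent.BpExc.TorChev Cfsg.Agent.BpExc.Tow
  Cfsg.Agent.BpExc.TowChev Cfsg.Agent.BpExc.Fr Cfsg.Agent.BpExc.Pair Cfsg.Agent.BpExc.LangFr Cfsg.Agent.GpExc.Field
  Cfsg.Agent.BpExc.NInst Cfsg.Agent.BpExc.NChev
open Cfsg.Agent.H469.Exc Cfsg.Agent.H316.U6 Cfsg.Agent.H28.RG Cfsg.Agent.H169.RG
open Cfsg.Agent.H441.RG hiding KT
open Cfsg.Agent.H398.RG (MK Cond Base conj_MK MK_le le_MK)
open Cfsg.Agent.H338.RG Cfsg.Agent.H694.RG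
open Cfsg.Agent.H129.TorusChar

universe u v

theorem center_bot {G : Type*} [Group G] (h : IsSimpleGroup G ∧ ¬ IsMulCommutative G) :
    Subgroup.center G = ⊥ := by
  obtain ⟨h1, h2⟩ := h
  rcases (inferInstance : (Subgroup.center G).Normal).eq_bot_or_eq_top with h3 | h3
  · exact h3
  · exfalso
    apply h2
    refine ⟨⟨fun a b => ?_⟩⟩
    have : b ∈ Subgroup.center G := by rw [h3]; trivial
    exact Subgroup.mem_center_iff.1 this a

variable {M : CoxeterMatrix (Fin 6)} {hp : IsType chevE6 6 M} {r q : ℕ} [hr : Fact r.Prime] {K₀ : Type} [Group K₀]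

/-- **K1.** -/
theorem k1 (m : MData hp r q K₀) (hF : Cfsg.Agent.H327.RG.Fr m.ι m.σ) (hrd : ¬ r ∣ m.dd)
    {y : ↥(chevE6.group (KK r))} (hy3 : y ^ 3 = 1) (hy1 : y ≠ 1) (f : TorForm m y)
    (hcard : Nat.card ↥(Sx M.toCoxeterSystem hp.isCartan (ch hp) f.t) = 18)
    (hnf : ¬ ∃ β ∈ Sx M.toCoxeterSystem hp.isCartan (ch hp) f.t, 0 ≤ β ∧ f.θ β = β ∧
      ∀ a ∈ Sx M.toCoxeterSystem hp.isCartan (ch hp) f.t, 0 ≤ a → ¬ IsRoot M.toCoxeterSystem hp.isCartan (β + a)) :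
    ∃ M' : Subgroup ↥(chevE6.group (KK r)), UsY m.ι (fixedSubgroup m.σ) r M' y ∧
      ∀ c, m.σ c = c → c * y = y * c → c ∈ Subgroup.normalizer (M' : Set ↥(chevE6.group (KK r))) := by
  have := finite_W hp M.toCoxeterSystem
  have := finite_fixC_α f
  have ht3 : f.t ^ 3 = 1 := f.pow_eq_one hy3
  have Δ : Wk.DFr hp M.toCoxeterSystem r m.e f.α f.θ f.t := ⟨m.he, f.frob, f.fr, f.mem, f.stab, f.pos⟩
  have hs : SL M.toCoxeterSystem hp.isCartan := H194.RG.sl6 hp M.toCoxeterSystem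
  obtain ⟨b, c, d, u, v, hT⟩ := H194.RG.exists_tri hp M.toCoxeterSystem (fun x => cX hp f.t x)
    (isMC_cX hp f.mem).zero (isMC_cX hp f.mem).add
    (fun x => by
      have h1 := cX_pow hp f.mem 3 x
      rw [ht3, cX_one] at h1
      exact h1.symm)
    (S := Sx M.toCoxeterSystem hp.isCartan (ch hp) f.t)
    (fun a => by
      constructor
      · intro ha
        exact ⟨ha.1, by rw [cX_root hp M.toCoxeterSystem f.mem ha.1]; exact ha.2⟩
      · intro ha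
        exact ⟨ha.1, by rw [← cX_root hp M.toCoxeterSystem f.mem ha.1]; exact ha.2⟩)
    hcard f.fr.root f.stab f.pos hnf
  have hZ : Subgroup.center ↥(chevE6.group (KK r)) = ⊥ :=
    center_bot (S1054.result (F := KK r) chevE6 (by simp))
  have hI := imgK_orb hp M.toCoxeterSystem (locFin r) f.frob f.fr hT.o3 hs m.he
  obtain ⟨h', hh1, hhT, hh2⟩ := exists_tor_orb hp M.toCoxeterSystem (locFin r) f.frob f.fr hT.o3 hs m.he
  have hr1 : 1 < r := hr.out.one_lt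
  have hre : 2 ≤ r ^ m.e := Nat.one_lt_pow m.he.ne' hr1
  have hq3 : r ^ (3 * m.e) = (r ^ m.e) ^ 3 := by rw [← pow_mul, mul_comm]
  have h8 : 8 ≤ r ^ (3 * m.e) := by
    rw [hq3]
    exact (by norm_num : 8 = 2 ^ 3) ▸ Nat.pow_le_pow_left hre 3
  have h9 : r ^ (3 * m.e) ≠ 9 := by
    rw [hq3]
    rcases Nat.lt_or_ge (r ^ m.e) 3 with h | h
    · have e1 : r ^ m.e = 2 := by omega
      rw [e1]
      norm_num
    · have e1 := Nat.pow_le_pow_left h 3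
      omega
  obtain ⟨g1, g2, g3, g4, g5⟩ := coreO Δ hs hT (q := r ^ (3 * m.e)) (e' := 3 * m.e) rfl (by omega) h9 hI
  have hMK : MK (KT hp f.α f.t) (Xo chevE6 6 f.α f.θ b) ≤ fixC f.α f.t := g3.trans (KT_le Δ)
  have hh3 : h' ∈ MK (KT hp f.α f.t) (Xo chevE6 6 f.α f.θ b) := (sup_le g1 g2) hh1
  have hhα : f.α h' = h' := (mem_fixC.1 (hMK hh3)).1
  have hcb : cpr M.toCoxeterSystem hp.isCartan c b = 1 := by rw [hs _ _ hT.cR hT.bR]; exact hT.cpr_bc hs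
  have hdb : cpr M.toCoxeterSystem hp.isCartan d b = 1 := by rw [hs _ _ hT.dR hT.bR]; exact hT.cpr_bd hs
  have obb := hT.ort b (by simp) b (by simp)
  have ocb := hT.ort c (by simp) b (by simp)
  have odb := hT.ort d (by simp) b (by simp)
  have hb' := hh2 b hT.bR obb.1 obb.2 (Or.inr (cpr_self _ _ hT.bR))
  have hc' := hh2 c hT.cR ocb.1 ocb.2 (Or.inl hcb)
  have hd' := hh2 d hT.dR odb.1 odb.2 (Or.inl hdb)
  obtain ⟨v₀, hv0, hv1⟩ : ∃ v₀ ∈ Xo chevE6 6 f.α f.θ b, v₀ ≠ 1 := by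
    by_contra hcon
    push Not at hcon
    exact hI.img.ne_bot ((Subgroup.eq_bot_iff_forall _).2 hcon)
  obtain ⟨U, u1, u2, -, u4, u5⟩ := exists_U hp M.toCoxeterSystem f.frob f.fr m.he hT hs f.mem f.fix v₀ hv0
  have hpg := pgroup_PK Δ hs hT
  refine ⟨_, H692.RG.FrUs.usY_of_frame m hrd hy1 (by norm_num : (3 : ℕ).Prime) hy3 hF f hMK g4 g5 ?_
    (fun c hc => norm_M Δ hs hT hc) ?_ (g1 hv0) hv1 u1 (fun x hx => ⟨2, u2 x hx⟩) u4 u5⟩
  · intro P hP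
    refine MK_le fun k hk x hx => hP _ (Subgroup.subset_closure ⟨k, hk, x, hx, rfl⟩) ?_
    obtain ⟨j, hj⟩ := hpg ⟨x, Xo_le_PK Δ hs hT hx⟩
    refine ⟨j, ?_⟩
    have hj' : x ^ r ^ j = 1 := congrArg Subtype.val hj
    rw [conj_pow, hj', mul_one, mul_inv_cancel]
  · intro z hz hzM
    exact cent_M Δ hs hT hZ ht3 hh3 hhT hhα hb' hc' hd' hz hzM

end Cfsg.Agent.H675.RG
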